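import Mathlib
import Cfsg.Agent.Lib.Helper84.RO.Defs
import Cfsg.Agent.Lib.Helper82.Parity
import Cfsg.Agent.Lib.Helper83.Basic

/-!
# RO ladder, rung ODD: a normal subgroup of odd order lies in the kernel of a real irreducible
character of odd degree
-/

set_option autoImplicit false

namespace Cfsg.Agent.Lib.Helper82.RO

open Cfsg Cfsg.Agent.Lib.Helper5 Cfsg.Agent.Lib.Helper84.RO
open scoped ComplexConjugate

/-- [ODD], without the commutativity hypothesis -/
theorem ker_of_odd_normal' {X : Type*} [Group X] [Finite X] (K : Subgroup X) [hKn : K.Normal]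
    (hK : Odd (Nat.card K)) (χ : X → ℂ)
    (hχ : IsIrrCharacter X χ) (hro : IsRO χ) : ∀ k ∈ K, χ k = χ 1 := by
  classical
  have := Fintype.ofFinite X
  have := Fintype.ofFinite K
  have hc := isIrr_isChar hχ
  have heven : EvenInt (∑ k ∈ (Finset.univ : Finset K).erase 1, χ k) := by
    refine evenInt_sum_of_involution (fun k : K => k⁻¹) (fun k : K => χ k) _ _ rfl ?_ ?_ ?_ ?_ ?_
    · intro a ha
      rw [Finset.mem_erase] at ha ⊢
      exact ⟨inv_ne_one.2 ha.1, Finset.mem_univ _⟩
    · intro a _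
      exact inv_inv a
    · intro a ha h
      rw [Finset.mem_erase] at ha
      apply ha.1
      have h2 : a ^ 2 = 1 := by
        rw [pow_two]
        nth_rewrite 1 [← h]
        exact inv_mul_cancel a
      have h3 : orderOf a ∣ 2 := orderOf_dvd_of_pow_eq_one h2
      have h4 : orderOf a ∣ Nat.card K := orderOf_dvd_natCard a
      have h5 : orderOf a ∣ Nat.gcd 2 (Nat.card K) := Nat.dvd_gcd h3 h4
      have h6 : Nat.gcd 2 (Nat.card K) = 1 := Nat.coprime_two_left.2 hK
      rw [h6, Nat.dvd_one, orderOf_eq_one_iff] at h5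
      exact h5
    · intro a _
      exact Cfsg.Agent.Lib.Helper20.isCharacter_isIntegral hc _
    · intro a _
      show χ ((a⁻¹ : K) : X) = χ a
      rw [Subgroup.coe_inv, Cfsg.Agent.Lib.Helper20.isCharacter_inv hc]
      exact Complex.conj_eq_iff_im.2 (hro.1 _)
  have hconst : classInner (fun n : K => χ n) (fun _ => (1 : ℂ)) ≠ 0 := by
    intro h0
    unfold classInner at h0
    have hcard : ((Nat.card K : ℂ))⁻¹ ≠ 0 := by
      apply inv_ne_zero
      exact_mod_cast (Nat.card_pos (α := K)).ne'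
    have h1 := (mul_eq_zero.1 h0).resolve_left hcard
    simp only [map_one, mul_one] at h1
    rw [← Finset.add_sum_erase _ _ (Finset.mem_univ (1 : K))] at h1
    obtain ⟨A, hA, hA2⟩ := heven
    rw [hA2, Subgroup.coe_one, isChar_one_eq hc] at h1
    have h2 : ((charDegree χ : ℕ) : ℂ) = ((2 : ℕ) : ℂ) * (-A) := by
      push_cast
      linear_combination h1
    have h3 := nat_dvd_of_isIntegral hA.neg h2 (by norm_num)
    have h4 := hro.2
    rw [← Nat.not_even_iff_odd] at h4
    exact h4 (even_iff_two_dvd.2 h3)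
  have hcl := clifford_invariant hKn hχ (Cfsg.Agent.Lib.Helper83.isIrr_trivial (G := K)) hconst
    (fun g => rfl)
  intro k hk
  have h1 := congrFun hcl ⟨k, hk⟩
  have h2 := congrFun hcl 1
  simp only [Pi.smul_apply, smul_eq_mul, mul_one, Subgroup.coe_one] at h1 h2
  rw [h1, h2]

/-- [ODD] -/
theorem ker_of_odd_normal {X : Type*} [Group X] [Finite X] (K : Subgroup X) [K.Normal]
    (hK : Odd (Nat.card K)) (hab : ∀ a ∈ K, ∀ b ∈ K, a * b = b * a) (χ : X → ℂ)
    (hχ : IsIrrCharacter X χ) (hro : IsRO χ) : ∀ k ∈ K, χ k = χ 1 :=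
  ker_of_odd_normal' K hK χ hχ hro

end Cfsg.Agent.Lib.Helper82.RO
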