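import Mathlib
import Cfsg.Agent.Lib.Helper84.RO.Defs
import Cfsg.Agent.Lib.Helper82.CharKer

/-!
# RO ladder, rung INF: inflation
-/

set_option autoImplicit false

namespace Cfsg.Agent.Lib.Helper82.RO

open Cfsg Cfsg.Agent.Lib.Helper5 Cfsg.Agent.Lib.Helper84.RO
open scoped ComplexConjugate

theorem isRO_comp_surj_iff {A B : Type*} [Group A] [Group B] (π : A →* B)
    (hπ : Function.Surjective π) (ψ : B → ℂ) : IsRO (fun a => ψ (π a)) ↔ IsRO ψ := by
  unfold IsRO IsReal charDegree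
  simp only [map_one]
  constructor
  · rintro ⟨h1, h2⟩
    refine ⟨fun b => ?_, h2⟩
    obtain ⟨a, rfl⟩ := hπ b
    exact h1 a
  · rintro ⟨h1, h2⟩
    exact ⟨fun a => h1 _, h2⟩

/-- [INF] -/
theorem ro_eq_card_ker {A B : Type*} [Group A] [Group B] [Finite A] (π : A →* B)
    (hπ : Function.Surjective π) :
    ro B = Nat.card {χ : IrrCharacter A // IsRO (χ : A → ℂ) ∧
      ∀ x ∈ π.ker, (χ : A → ℂ) x = (χ : A → ℂ) 1} := by
  unfold ro
  refine Nat.card_congr (Equiv.ofBijective (fun ψ => ⟨⟨fun a => ψ.1.1 (π a),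
    isIrr_comp_surj ψ.1.2 π hπ⟩, (isRO_comp_surj_iff π hπ _).2 ψ.2, ?_⟩) ⟨?_, ?_⟩)
  · intro x hx
    show ψ.1.1 (π x) = ψ.1.1 (π 1)
    rw [MonoidHom.mem_ker.1 hx, map_one]
  · intro ψ ψ' h
    apply Subtype.ext
    apply Subtype.ext
    funext b
    obtain ⟨a, rfl⟩ := hπ b
    have := congrArg (fun z => (z.1.1 : A → ℂ) a) h
    exact this
  · rintro ⟨⟨χ, hχ⟩, hro, hker⟩
    obtain ⟨ψ', hψ', hval⟩ := isIrr_deflate hχ π.ker hker
    let e := (QuotientGroup.quotientKerEquivOfSurjective π hπ).symm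
    have hψ := isIrr_comp_surj hψ' e.toMonoidHom e.surjective
    have hcomp : (fun a => (fun b => ψ' (e.toMonoidHom b)) (π a)) = χ := by
      funext a
      show ψ' (e (π a)) = χ a
      rw [← hval a]
      congr 1
      rw [MulEquiv.symm_apply_eq]
      rfl
    refine ⟨⟨⟨_, hψ⟩, ?_⟩, ?_⟩
    · rw [← isRO_comp_surj_iff π hπ, hcomp]
      exact hro
    · apply Subtype.ext
      apply Subtype.ext
      exact hcomp

end Cfsg.Agent.Lib.Helper82.RO
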