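import Mathlib
import Cfsg.Agent.Lib.Helper84.RO.Defs
import Cfsg.Agent.Lib.Helper82.Constituent
import Cfsg.Agent.Lib.Helper82.ROINF
import Cfsg.Agent.S1489

/-!
# RO ladder, rung CL: the Clifford correspondence preserves "real of odd degree"
-/

set_option autoImplicit false

namespace Cfsg.Agent.Lib.Helper82.RO

open Cfsg Cfsg.Agent.Lib.Helper5 Cfsg.Agent.Lib.Helper84.RO Cfsg.Agent.Lib.Helper20
  Cfsg.Agent.Lib.Helper19
open scoped ComplexConjugate

theorem isIrr_conjFun {G : Type*} [Group G] [Finite G] {χ : G → ℂ} (h : IsIrrCharacter G χ) :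
    IsIrrCharacter G (fun g => conj (χ g)) := by
  classical
  have := Fintype.ofFinite G
  rw [isIrrCharacter_iff] at h ⊢
  refine ⟨isCharacter_conj h.1, ?_⟩
  rw [← h.2]
  unfold classInner
  congr 1
  apply Finset.sum_congr rfl
  intro g _
  rw [Complex.conj_conj, mul_comm]

theorem indFun_conjFun {G : Type*} [Group G] [Fintype G] (H : Subgroup G) (θ : H → ℂ) (g : G) :
    indFun H (fun h => conj (θ h)) g = conj (indFun H θ g) := by
  rw [indFun_apply, indFun_apply, map_mul, map_inv₀, map_natCast, map_sum]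
  congr 1
  apply Finset.sum_congr rfl
  intro x _
  by_cases hx : x⁻¹ * g * x ∈ H
  · rw [extendByZero_of_mem H _ hx, extendByZero_of_mem H _ hx]
  · rw [extendByZero_of_not_mem H _ hx, extendByZero_of_not_mem H _ hx, map_zero]

theorem isReal_iff_conj {X : Type*} (χ : X → ℂ) : IsReal χ ↔ (fun g => conj (χ g)) = χ := by
  constructor
  · intro h
    funext g
    exact Complex.conj_eq_iff_im.2 (h g)
  · intro h g
    exact Complex.conj_eq_iff_im.1 (congrFun h g)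

/-- The Clifford correspondence restricted to real characters of odd degree. -/
theorem card_ro_clifford {Y : Type*} [Group Y] [Fintype Y] (H T : Subgroup Y) [hN : H.Normal]
    [Fintype H] [Fintype T] (ϑ : H → ℂ) (hϑ : IsIrrCharacter H ϑ) (hϑr : IsReal ϑ)
    (hT : ∀ g : Y, g ∈ T ↔ ∀ n : H, ϑ ⟨g * n * g⁻¹, hN.conj_mem (n : Y) n.2 g⟩ = ϑ n)
    (hHT : H ≤ T) (hodd : Odd T.index) :
    Nat.card {χ : IrrCharacter Y // IsRO (χ : Y → ℂ) ∧
      classInner (fun n : H => (χ : Y → ℂ) n) ϑ ≠ 0} =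
    Nat.card {ψ : IrrCharacter T // IsRO (ψ : T → ℂ) ∧
      classInner (fun n : H => (ψ : T → ℂ) ⟨(n : Y), hHT n.2⟩) ϑ ≠ 0} := by
  classical
  have hc : ∀ ψ : T → ℂ, IsIrrCharacter T ψ →
      classInner (fun n : H => ψ ⟨(n : Y), hHT n.2⟩) ϑ ≠ 0 →
      classInner (indFun (H.subgroupOf T)
        (fun x => ϑ ⟨(x : T), Subgroup.mem_subgroupOf.mp x.2⟩)) ψ ≠ 0 := by
    intro ψ hψ h
    apply inner_indFun_ne_zero _ (isIrr_isChar hψ)
    have := classInner_comp_equiv (Subgroup.subgroupOfEquivOfLe hHT)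
      (fun n : H => ψ ⟨(n : Y), hHT n.2⟩) ϑ
    rw [← this] at h
    exact h
  have hirr : ∀ ψ : T → ℂ, IsIrrCharacter T ψ →
      classInner (fun n : H => ψ ⟨(n : Y), hHT n.2⟩) ϑ ≠ 0 → IsIrrCharacter Y (indFun T ψ) :=
    fun ψ hψ h => (Cfsg.Agent.S1489.result H T ϑ hϑ hT hHT ψ ψ hψ hψ (hc ψ hψ h) (hc ψ hψ h)).1
  have hinj : ∀ ψ ψ' : T → ℂ, IsIrrCharacter T ψ → IsIrrCharacter T ψ' →
      classInner (fun n : H => ψ ⟨(n : Y), hHT n.2⟩) ϑ ≠ 0 →
      classInner (fun n : H => ψ' ⟨(n : Y), hHT n.2⟩) ϑ ≠ 0 → indFun T ψ = indFun T ψ' →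
      ψ = ψ' :=
    fun ψ ψ' hψ hψ' h h' =>
      (Cfsg.Agent.S1489.result H T ϑ hϑ hT hHT ψ ψ' hψ hψ' (hc ψ hψ h) (hc ψ' hψ' h')).2
  have hover : ∀ ψ : T → ℂ, IsIrrCharacter T ψ →
      classInner (fun n : H => ψ ⟨(n : Y), hHT n.2⟩) ϑ ≠ 0 →
      classInner (fun n : H => indFun T ψ n) ϑ ≠ 0 := by
    intro ψ hψ h
    have hχ := hirr ψ hψ h
    have hχc := isIrr_isChar hχ
    have h1 : classInner (fun t : T => indFun T ψ t) ψ ≠ 0 := by
      have h2 := frobenius_reciprocity T ψ (indFun T ψ) (isChar_isClassFunction hχc)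
      rw [classInner_irr_self hχ] at h2
      rw [← classInner_conj_symm, ← h2]
      simp
    obtain ⟨Δ, hΔ, hsum⟩ := exists_add_of_inner_ne_zero (isCharacter_restrict hχc T) hψ h1
    have h3 : (fun n : H => indFun T ψ n) =
        (fun n : H => ψ ⟨(n : Y), hHT n.2⟩) + (fun n : H => Δ ⟨(n : Y), hHT n.2⟩) := by
      funext n
      exact congrFun hsum ⟨(n : Y), hHT n.2⟩
    obtain ⟨a, ha⟩ : ∃ a : ℕ, classInner (fun n : H => ψ ⟨(n : Y), hHT n.2⟩) ϑ = a :=
      isCharacter_classInner_nat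
        (isCharacter_comp_hom (isIrr_isChar hψ) (Subgroup.inclusion hHT)) hϑ
    obtain ⟨b, hb⟩ : ∃ b : ℕ, classInner (fun n : H => Δ ⟨(n : Y), hHT n.2⟩) ϑ = b :=
      isCharacter_classInner_nat (isCharacter_comp_hom hΔ (Subgroup.inclusion hHT)) hϑ
    rw [h3, classInner_add_left, ha, hb]
    rw [ha] at h
    have ha0 : a ≠ 0 := by exact_mod_cast h
    have : a + b ≠ 0 := by omega
    exact_mod_cast this
  have hreal : ∀ ψ : T → ℂ, IsReal ψ → IsReal (indFun T ψ) := by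
    intro ψ hψ
    rw [isReal_iff_conj] at hψ ⊢
    funext g
    rw [← indFun_conjFun, hψ]
  symm
  refine Nat.card_congr (Equiv.ofBijective (fun ψ => ⟨⟨indFun T ψ.1.1, hirr _ ψ.1.2 ψ.2.2⟩,
    ⟨hreal _ ψ.2.1.1, ?_⟩, hover _ ψ.1.2 ψ.2.2⟩) ⟨?_, ?_⟩)
  · show Odd (charDegree (indFun T ψ.1.1))
    rw [charDegree_indFun T (isIrr_isChar ψ.1.2)]
    exact hodd.mul ψ.2.1.2
  · intro ψ ψ' h
    apply Subtype.ext
    apply Subtype.ext
    apply hinj _ _ ψ.1.2 ψ'.1.2 ψ.2.2 ψ'.2.2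
    exact congrArg (fun z => (z.1.1 : Y → ℂ)) h
  · rintro ⟨⟨χ, hχ⟩, hro, hov⟩
    obtain ⟨ψ, hψ, hind, hin⟩ := Cfsg.Agent.S0854.result H ϑ hϑ T hT hHT χ hχ hov
    have hov' : classInner (fun n : H => ψ ⟨(n : Y), hHT n.2⟩) ϑ ≠ 0 := by
      rw [hin]; exact hov
    have hψr : IsReal ψ := by
      rw [isReal_iff_conj]
      apply hinj _ _ (isIrr_conjFun hψ) hψ _ hov'
      · funext g
        rw [indFun_conjFun, hind]
        exact Complex.conj_eq_iff_im.2 (hro.1 g)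
      · have h5 : classInner (fun n : H => conj (ψ ⟨(n : Y), hHT n.2⟩)) ϑ
            = conj (classInner (fun n : H => ψ ⟨(n : Y), hHT n.2⟩) ϑ) := by
          unfold classInner
          rw [map_mul, map_inv₀, map_natCast, map_sum]
          congr 1
          apply Finset.sum_congr rfl
          intro n _
          rw [map_mul, Complex.conj_conj, Complex.conj_eq_iff_im.2 (hϑr n)]
        rw [h5]
        simpa using hov'
    have hψo : Odd (charDegree ψ) := by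
      have h6 : Odd (charDegree χ) := hro.2
      rw [← hind, charDegree_indFun T (isIrr_isChar hψ)] at h6
      exact (Nat.odd_mul.1 h6).2
    refine ⟨⟨⟨ψ, hψ⟩, ⟨hψr, hψo⟩, hov'⟩, ?_⟩
    apply Subtype.ext
    apply Subtype.ext
    exact hind

/-- transport of irreducible characters along an isomorphism -/
noncomputable def irrCongr {M N : Type*} [Group M] [Group N] [Finite M] [Finite N] (e : M ≃* N) :
    IrrCharacter N ≃ IrrCharacter M where
  toFun χ := ⟨χ.1 ∘ e, isIrrCharacter_comp_equiv e χ.2⟩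
  invFun χ := ⟨χ.1 ∘ e.symm, isIrrCharacter_comp_equiv e.symm χ.2⟩
  left_inv χ := by
    apply Subtype.ext
    funext x
    simp
  right_inv χ := by
    apply Subtype.ext
    funext x
    simp

theorem ov_iff_classInner {G : Type*} [Group G] {L Y : Subgroup G} [Fintype L] (hLY : L ≤ Y)
    (χ : Y → ℂ) (θ : L → ℂ) :
    Ov hLY χ θ ↔ classInner (fun l : L => χ ⟨l, hLY l.2⟩) θ ≠ 0 := by
  unfold Ov classInner
  rw [finsum_eq_sum_of_fintype]
  have hcard : ((Nat.card L : ℂ))⁻¹ ≠ 0 := by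
    apply inv_ne_zero
    exact_mod_cast (Nat.card_pos (α := L)).ne'
  constructor
  · intro h
    exact mul_ne_zero hcard h
  · intro h h0
    apply h
    rw [h0, mul_zero]

/-- [CL] -/
theorem cnt_inertia {G : Type*} [Group G] [Finite G] (L : Subgroup G) (hL : L.Normal) (θ : L → ℂ)
    (hθ : IsIrrCharacter L θ) (hθr : IsReal θ) (Y : Subgroup G) (hLY : L ≤ Y)
    (hLYT : L ≤ Y ⊓ inertia hL θ) (hodd : Odd ((Y ⊓ inertia hL θ).relIndex Y)) :
    cnt hLY θ = cnt hLYT θ := by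
  classical
  have := Fintype.ofFinite G
  let e1 : (L.subgroupOf Y) ≃* L := Subgroup.subgroupOfEquivOfLe hLY
  let e2 : ((Y ⊓ inertia hL θ).subgroupOf Y) ≃* (Y ⊓ inertia hL θ : Subgroup G) :=
    Subgroup.subgroupOfEquivOfLe inf_le_left
  have hN : (L.subgroupOf Y).Normal := Subgroup.Normal.subgroupOf hL Y
  have hHT : L.subgroupOf Y ≤ (Y ⊓ inertia hL θ).subgroupOf Y := by
    intro x hx
    exact hLYT hx
  have hT : ∀ g : Y, g ∈ (Y ⊓ inertia hL θ).subgroupOf Y ↔ ∀ n : L.subgroupOf Y,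
      (θ ∘ e1) ⟨g * n * g⁻¹, hN.conj_mem (n : Y) n.2 g⟩ = (θ ∘ e1) n := by
    intro g
    rw [Subgroup.mem_subgroupOf, Subgroup.mem_inf, mem_inertia']
    constructor
    · rintro ⟨_, h⟩ n
      exact h (e1 n)
    · intro h
      refine ⟨g.2, fun l => ?_⟩
      obtain ⟨n, rfl⟩ := e1.surjective l
      exact h n
  have key := card_ro_clifford (L.subgroupOf Y) ((Y ⊓ inertia hL θ).subgroupOf Y) (θ ∘ e1)
    (isIrrCharacter_comp_equiv e1 hθ) (fun n => hθr _) hT hHT hodd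
  unfold cnt
  have hl : Nat.card {χ : IrrCharacter Y // IsRO (χ : Y → ℂ) ∧ Ov hLY (χ : Y → ℂ) θ} =
      Nat.card {χ : IrrCharacter Y // IsRO (χ : Y → ℂ) ∧
        classInner (fun n : L.subgroupOf Y => (χ : Y → ℂ) n) (θ ∘ e1) ≠ 0} := by
    apply Nat.card_congr
    apply Equiv.subtypeEquivRight
    intro χ
    rw [ov_iff_classInner, ← classInner_comp_equiv e1]
    rfl
  have hr : Nat.card {χ : IrrCharacter (Y ⊓ inertia hL θ : Subgroup G) //
        IsRO (χ : (Y ⊓ inertia hL θ : Subgroup G) → ℂ) ∧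
        Ov hLYT (χ : (Y ⊓ inertia hL θ : Subgroup G) → ℂ) θ} =
      Nat.card {ψ : IrrCharacter ((Y ⊓ inertia hL θ).subgroupOf Y) //
        IsRO (ψ : ((Y ⊓ inertia hL θ).subgroupOf Y) → ℂ) ∧
        classInner (fun n : L.subgroupOf Y =>
          (ψ : ((Y ⊓ inertia hL θ).subgroupOf Y) → ℂ) ⟨(n : Y), hHT n.2⟩) (θ ∘ e1) ≠ 0} := by
    apply Nat.card_congr
    refine Equiv.subtypeEquiv (irrCongr e2) ?_
    intro ξ
    rw [ov_iff_classInner, ← classInner_comp_equiv e1,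
      ← isRO_comp_surj_iff e2.toMonoidHom e2.surjective]
    rfl
  rw [hl, hr, key]

end Cfsg.Agent.Lib.Helper82.RO
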