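import Mathlib
import Cfsg.Agent.Lib.Helper84.RO.Defs
import Cfsg.Agent.Lib.Helper82.ROCL
import Cfsg.Agent.Lib.Helper5.DegHyp
import Cfsg.Agent.Lib.Helper21.RealPC
import Cfsg.Agent.Lib.Helper55.SylowMore

/-!
# RO ladder, rung ORB: `P`-invariant constituents of an odd degree character
-/

set_option autoImplicit false

namespace Cfsg.Agent.Lib.Helper82.RO

open Cfsg Cfsg.Agent.Lib.Helper5 Cfsg.Agent.Lib.Helper84.RO Cfsg.Agent.Lib.Helper20
  Cfsg.Agent.Lib.Helper19
open scoped ComplexConjugate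

/-- [ORB] -/
theorem orb {G : Type*} [Group G] [Finite G] (L : Subgroup G) (hL : L.Normal) (P : Sylow 2 G)
    (X : Subgroup G) (hNX : Subgroup.normalizer ((P : Subgroup G) : Set G) ≤ X) (hLX : L ≤ X)
    (χ : X → ℂ) (hχ : IsIrrCharacter X χ) (hodd : Odd (charDegree χ)) :
    (∃ θ : L → ℂ, IsIrrCharacter L θ ∧ (∀ u ∈ (P : Subgroup G), cjF hL θ u = θ) ∧ Ov hLX χ θ) ∧
    (∀ θ θ' : L → ℂ, IsIrrCharacter L θ → IsIrrCharacter L θ' →
      (∀ u ∈ (P : Subgroup G), cjF hL θ u = θ) → (∀ u ∈ (P : Subgroup G), cjF hL θ' u = θ') →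
      Ov hLX χ θ →
      (Ov hLX χ θ' ↔ ∃ n ∈ Subgroup.normalizer ((P : Subgroup G) : Set G), θ' = cjF hL θ n)) := by
  classical
  have := Fintype.ofFinite G
  let e1 : (L.subgroupOf X) ≃* L := Subgroup.subgroupOfEquivOfLe hLX
  have hN : (L.subgroupOf X).Normal := Subgroup.Normal.subgroupOf hL X
  have hPX : (P : Subgroup G) ≤ X := Subgroup.le_normalizer.trans hNX
  have hχc := isIrr_isChar hχ
  have hχcl := isChar_isClassFunction hχc
  have hcj : ∀ (θ : L → ℂ) (x : X), cjF hN (θ ∘ e1) x = (cjF hL θ (x : G)) ∘ e1 := by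
    intro θ x
    funext n
    rfl
  have hinj : ∀ θ θ' : L → ℂ, θ ∘ e1 = θ' ∘ e1 → θ = θ' := by
    intro θ θ' h
    funext l
    obtain ⟨n, rfl⟩ := e1.surjective l
    exact congrFun h n
  have hov : ∀ θ : L → ℂ, Ov hLX χ θ ↔
      classInner (fun n : L.subgroupOf X => χ n) (θ ∘ e1) ≠ 0 := by
    intro θ
    rw [ov_iff_classInner, ← classInner_comp_equiv e1]
    rfl
  have hfact1 : ∀ (θ : L → ℂ) (x : G), x ∈ X → (Ov hLX χ (cjF hL θ x) ↔ Ov hLX χ θ) := by
    intro θ x hx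
    rw [hov, hov, ← hcj θ ⟨x, hx⟩, clifford_inner_conj hN hχcl]
  have hfact2 : ∀ θ θ' : L → ℂ, IsIrrCharacter L θ → IsIrrCharacter L θ' → Ov hLX χ θ →
      Ov hLX χ θ' → ∃ x ∈ X, θ' = cjF hL θ x := by
    intro θ θ' hθ hθ' h h'
    by_contra hne
    push Not at hne
    rw [hov] at h h'
    apply h'
    apply clifford_inner_zero hN hχ (isIrrCharacter_comp_equiv e1 hθ) h
      (isIrrCharacter_comp_equiv e1 hθ')
    intro g hg
    rw [hcj] at hg
    exact hne g g.2 (hinj _ _ hg)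
  refine ⟨?_, ?_⟩
  · obtain ⟨lam, hlam⟩ := exists_irr_constituent (isCharacter_restrict hχc (L.subgroupOf X))
      (by
        show χ ((1 : L.subgroupOf X) : X) ≠ 0
        rw [Subgroup.coe_one, isChar_one_eq hχc]
        exact_mod_cast (isIrr_charDegree_pos hχ).ne')
    have hidx : ¬ 2 ∣ (inertia hN (lam : L.subgroupOf X → ℂ)).index := by
      intro h
      have h2 := h.trans (index_inertia_dvd hN lam.2 hχ hlam)
      rw [← Nat.not_even_iff_odd] at hodd
      exact hodd (even_iff_two_dvd.2 h2)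
    have hP' : IsPGroup 2 ((P : Subgroup G).subgroupOf X) :=
      P.isPGroup'.comap_of_injective X.subtype X.subtype_injective
    obtain ⟨g, hg⟩ := Cfsg.Agent.Lib.Helper21.RealP.exists_conj_le_of_not_dvd_index 2 _ hP' _ hidx
    have hμirr := isIrrCharacter_cjF hN lam.2 g⁻¹
    have hμinv : ∀ r ∈ (P : Subgroup G).subgroupOf X,
        cjF hN (cjF hN (lam : L.subgroupOf X → ℂ) g⁻¹) r
          = cjF hN (lam : L.subgroupOf X → ℂ) g⁻¹ := by
      intro r hr
      have h1 := (mem_inertia hN (lam : L.subgroupOf X → ℂ) _).mp (hg r hr)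
      have h2 := congrArg (fun ψ => cjF hN ψ g⁻¹) h1
      simp only [cjF_cjF] at h2
      rw [cjF_cjF, ← h2]
      congr 1
      group
    set μ := cjF hN (lam : L.subgroupOf X → ℂ) g⁻¹ with hμ
    have hμe : (μ ∘ e1.symm) ∘ e1 = μ := by
      funext n
      simp
    refine ⟨μ ∘ e1.symm, isIrrCharacter_comp_equiv e1.symm hμirr, ?_, ?_⟩
    · intro u hu
      apply hinj
      rw [← hcj _ ⟨u, hPX hu⟩, hμe]
      exact hμinv ⟨u, hPX hu⟩ hu
    · rw [hov, hμe, hμ, clifford_inner_conj hN hχcl]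
      exact hlam
  · intro θ θ' hθ hθ' hinv hinv' hovθ
    constructor
    · intro hovθ'
      obtain ⟨x, hx, rfl⟩ := hfact2 θ θ' hθ hθ' hovθ hovθ'
      have hPM : (P : Subgroup G) ≤ X ⊓ inertia hL θ := by
        intro u hu
        exact ⟨hPX hu, hinv u hu⟩
      have hQM : ((x • P : Sylow 2 G) : Subgroup G) ≤ X ⊓ inertia hL θ := by
        intro v hv
        have hv' : v ∈ (P : Subgroup G).map (MulAut.conj x).toMonoidHom := hv
        obtain ⟨u, hu, rfl⟩ := Subgroup.mem_map.1 hv'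
        have hu' : u ∈ (P : Subgroup G) := hu
        show x * u * x⁻¹ ∈ X ⊓ inertia hL θ
        refine ⟨X.mul_mem (X.mul_mem hx (hPX hu')) (X.inv_mem hx), ?_⟩
        show cjF hL θ (x * u * x⁻¹) = θ
        have h1 := hinv' u hu'
        rw [cjF_cjF] at h1
        rw [← cjF_cjF, h1, cjF_cjF, mul_inv_cancel, cjF_one]
      obtain ⟨m, hm, hQ⟩ := Cfsg.Agent.Lib.Helper55.sylow_conj_in_subgroup P (x • P) hPM hQM
      have hQ' : (P : Subgroup G).map (MulAut.conj x).toMonoidHom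
          = (P : Subgroup G).map (MulAut.conj m).toMonoidHom := hQ
      refine ⟨m⁻¹ * x, ?_, ?_⟩
      · apply Cfsg.Agent.Lib.Helper55.mem_normalizer_of_map_conj_eq
        have h2 : (MulAut.conj (m⁻¹ * x)).toMonoidHom
            = (MulAut.conj m⁻¹).toMonoidHom.comp (MulAut.conj x).toMonoidHom := by
          ext y
          simp [mul_assoc]
        rw [h2, ← Subgroup.map_map, hQ', Subgroup.map_map]
        have h3 : (MulAut.conj m⁻¹).toMonoidHom.comp (MulAut.conj m).toMonoidHom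
            = MonoidHom.id G := by
          ext y
          simp [mul_assoc]
        rw [h3, Subgroup.map_id]
      · rw [← cjF_cjF]
        have h4 : cjF hL θ m⁻¹ = θ := (inertia hL θ).inv_mem hm.2
        rw [h4]
    · rintro ⟨n, hn, rfl⟩
      exact (hfact1 θ n (hNX hn)).2 hovθ

end Cfsg.Agent.Lib.Helper82.RO
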