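import Mathlib
import Cfsg.Agent.Lib.Helper84.RO.Defs
import Cfsg.Agent.Lib.Helper82.Linear

/-!
# RO ladder, rung TW: twisting by a real linear character
-/

set_option autoImplicit false

namespace Cfsg.Agent.Lib.Helper82.RO

open Cfsg Cfsg.Agent.Lib.Helper5 Cfsg.Agent.Lib.Helper84.RO
open scoped ComplexConjugate

/-- a real linear character has square one -/
theorem rl_mul_self {X : Type*} [Group X] [Finite X] {μ : X → ℂ} (hμ : IsRL μ) (x : X) :
    μ x * μ x = 1 := by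
  have h1 := norm_linear_eq_one hμ.1 hμ.2.1 x
  have h2 : (μ x).im = 0 := hμ.2.2 x
  have h3 : conj (μ x) = μ x := Complex.conj_eq_iff_im.2 h2
  have h4 := Complex.mul_conj (μ x)
  rw [h3, Complex.normSq_eq_norm_sq, h1] at h4
  simpa using h4

theorem rl_conj {X : Type*} [Group X] {μ : X → ℂ} (hμ : IsRL μ) (x : X) :
    conj (μ x) = μ x := Complex.conj_eq_iff_im.2 (hμ.2.2 x)

theorem isRO_rl_mul {X : Type*} [Group X] {μ χ : X → ℂ} (hμ : IsRL μ) (hχ : IsRO χ) :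
    IsRO (μ * χ) := by
  refine ⟨fun g => ?_, ?_⟩
  · have h1 := hμ.2.2 g
    have h2 := hχ.1 g
    simp [Complex.mul_im, h1, h2]
  · have := hχ.2
    unfold charDegree at this ⊢
    simpa [hμ.2.1] using this

/-- [TW] -/
theorem cnt_twist {G : Type*} [Group G] [Finite G] (L Y : Subgroup G) (hLY : L ≤ Y) (θ : L → ℂ)
    (μ : Y → ℂ) (hμ : IsRL μ) (hμθ : ∀ l : L, μ ⟨l, hLY l.2⟩ = θ l) :
    cnt hLY θ = cnt hLY (fun _ => 1) := by
  unfold cnt
  have hinvol : ∀ χ : Y → ℂ, μ * (μ * χ) = χ := by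
    intro χ
    funext x
    simp only [Pi.mul_apply]
    rw [← mul_assoc, rl_mul_self hμ, one_mul]
  have hov : ∀ χ : Y → ℂ, Ov hLY (μ * χ) (fun _ => 1) ↔ Ov hLY χ θ := by
    intro χ
    unfold Ov
    have : (fun l : L => (μ * χ) ⟨l, hLY l.2⟩ * conj ((fun _ : L => (1 : ℂ)) l))
        = fun l : L => χ ⟨l, hLY l.2⟩ * conj (θ l) := by
      funext l
      simp only [Pi.mul_apply, map_one, mul_one]
      rw [← hμθ l, rl_conj hμ, mul_comm]
    rw [this]
  refine Nat.card_congr ⟨fun χ => ⟨⟨μ * χ.1.1, isIrr_linear_mul hμ.1 hμ.2.1 χ.1.2⟩,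
      isRO_rl_mul hμ χ.2.1, (hov _).2 χ.2.2⟩,
    fun χ => ⟨⟨μ * χ.1.1, isIrr_linear_mul hμ.1 hμ.2.1 χ.1.2⟩,
      isRO_rl_mul hμ χ.2.1, ?_⟩, ?_, ?_⟩
  · rw [← hov, hinvol]
    exact χ.2.2
  · intro χ
    apply Subtype.ext
    apply Subtype.ext
    exact hinvol _
  · intro χ
    apply Subtype.ext
    apply Subtype.ext
    exact hinvol _

end Cfsg.Agent.Lib.Helper82.RO
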