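import Mathlib
import Cfsg.Agent.Lib.Helper84.RO.Defs
import Cfsg.Agent.Lib.Helper82.ROCL
import Cfsg.Agent.Lib.Helper82.Linear

/-!
# RO ladder, rung RES: restriction to an invariant linear character
-/

set_option autoImplicit false

namespace Cfsg.Agent.Lib.Helper82.RO

open Cfsg Cfsg.Agent.Lib.Helper5 Cfsg.Agent.Lib.Helper84.RO Cfsg.Agent.Lib.Helper20
  Cfsg.Agent.Lib.Helper19
open scoped ComplexConjugate

/-- [RES] -/
theorem res_of_ov_invariant {G : Type*} [Group G] [Finite G] (L Y : Subgroup G) (hL : L.Normal)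
    (hLY : L ≤ Y) (θ : L → ℂ) (hθ : IsCharacter L θ) (hθ1 : θ 1 = 1)
    (hinv : ∀ y ∈ Y, cjF hL θ y = θ) (χ : Y → ℂ) (hχ : IsIrrCharacter Y χ) :
    Ov hLY χ θ ↔ ∀ l : L, χ ⟨l, hLY l.2⟩ = χ 1 * θ l := by
  classical
  have := Fintype.ofFinite G
  let e1 : (L.subgroupOf Y) ≃* L := Subgroup.subgroupOfEquivOfLe hLY
  have hN : (L.subgroupOf Y).Normal := Subgroup.Normal.subgroupOf hL Y
  have hθi : IsIrrCharacter L θ := isChar_linear_isIrr hθ hθ1
  constructor
  · intro hov l
    rw [ov_iff_classInner, ← classInner_comp_equiv e1] at hov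
    have hcl := clifford_invariant hN hχ (isIrrCharacter_comp_equiv e1 hθi) hov (by
      intro g
      funext n
      exact congrFun (hinv g g.2) (e1 n))
    have h1 := congrFun hcl 1
    have h2 := congrFun hcl (e1.symm l)
    simp only [Pi.smul_apply, smul_eq_mul, Function.comp_apply, map_one, hθ1, mul_one,
      MulEquiv.apply_symm_apply, Subgroup.coe_one] at h1 h2
    rw [h1, ← h2]
    rfl
  · intro h
    unfold Ov
    rw [finsum_eq_sum_of_fintype]
    have h1 : ∀ l : L, χ ⟨l, hLY l.2⟩ * conj (θ l) = χ 1 := by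
      intro l
      rw [h l, mul_assoc, isChar_linear_mul_conj hθ hθ1, mul_one]
    simp only [h1]
    rw [Finset.sum_const, nsmul_eq_mul]
    apply mul_ne_zero
    · have : (Finset.univ : Finset L).card ≠ 0 := by
        rw [Finset.card_univ]
        exact Fintype.card_ne_zero
      exact_mod_cast this
    · rw [isChar_one_eq (isIrr_isChar hχ)]
      exact_mod_cast (isIrr_charDegree_pos hχ).ne'

end Cfsg.Agent.Lib.Helper82.RO
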