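import Mathlib
import Cfsg.Agent.Lib.Helper84.RO.Defs
import Cfsg.Agent.Lib.Helper82.ROTW
import Cfsg.Agent.Lib.Helper82.Linear
import Cfsg.Agent.Lib.Helper83.Basic

/-!
# RO ladder, rung TR: extension of a real invariant linear character by transfer
-/

set_option autoImplicit false

namespace Cfsg.Agent.Lib.Helper82.RO

open Cfsg Cfsg.Agent.Lib.Helper5 Cfsg.Agent.Lib.Helper84.RO
open scoped ComplexConjugate

/-- [TR] -/
theorem exists_rl_transfer {T L₀ : Type*} [Group T] [Finite T] [Group L₀] (S : Subgroup T)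
    (hS : Odd S.index) (j : L₀ →* S) (θ : L₀ → ℂ)
    (hinv : ∀ (t : T) (l : L₀), ∃ l' : L₀, ((j l' : S) : T) = t * (j l : S) * t⁻¹ ∧ θ l' = θ l)
    (ν : S → ℂ) (hν : IsRL ν) (hνθ : ∀ l, ν (j l) = θ l) :
    ∃ μ : T → ℂ, IsRL μ ∧ ∀ l, μ ((j l : S) : T) = θ l := by
  classical
  let φ : S →* ℂˣ := (linHom ν hν.1 hν.2.1).toHomUnits
  have hφ : ∀ s, ((φ s : ℂˣ) : ℂ) = ν s := fun s => rfl
  have hfin : ∀ g : T, Fintype (Quotient (MulAction.orbitRel (Subgroup.zpowers g) (T ⧸ S))) :=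
    fun g => Fintype.ofFinite _
  have hform : ∀ g : T, ((MonoidHom.transfer φ g : ℂˣ) : ℂ) =
      ∏ q : Quotient (MulAction.orbitRel (Subgroup.zpowers g) (T ⧸ S)),
        ν ⟨q.out.out⁻¹ * g ^ Function.minimalPeriod (g • ·) q.out * q.out.out,
            QuotientGroup.out_conj_pow_minimalPeriod_mem S g q.out⟩ := by
    intro g
    rw [MonoidHom.transfer_eq_prod_quotient_orbitRel_zpowers_quot, Units.coe_prod]
    rfl
  refine ⟨fun t => ((MonoidHom.transfer φ t : ℂˣ) : ℂ),
    ⟨isIrr_isChar (Cfsg.Agent.Lib.Helper83.isIrr_of_hom _), by simp, ?_⟩, ?_⟩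
  · intro g
    apply Complex.conj_eq_iff_im.1
    show conj ((MonoidHom.transfer φ g : ℂˣ) : ℂ) = ((MonoidHom.transfer φ g : ℂˣ) : ℂ)
    rw [hform, map_prod]
    apply Finset.prod_congr rfl
    intro q _
    exact rl_conj hν _
  · intro l
    show ((MonoidHom.transfer φ ((j l : S) : T) : ℂˣ) : ℂ) = θ l
    rw [hform]
    have hfac : ∀ q : Quotient (MulAction.orbitRel (Subgroup.zpowers ((j l : S) : T)) (T ⧸ S)),
        ν ⟨q.out.out⁻¹ * ((j l : S) : T) ^ Function.minimalPeriod (((j l : S) : T) • ·) q.out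
            * q.out.out,
            QuotientGroup.out_conj_pow_minimalPeriod_mem S ((j l : S) : T) q.out⟩ =
          θ l ^ Function.minimalPeriod (((j l : S) : T) • ·) q.out := by
      intro q
      obtain ⟨l', hl', hθ'⟩ := hinv q.out.out⁻¹
        (l ^ Function.minimalPeriod (((j l : S) : T) • ·) q.out)
      have h1 : (⟨q.out.out⁻¹ * ((j l : S) : T) ^
          Function.minimalPeriod (((j l : S) : T) • ·) q.out * q.out.out,
            QuotientGroup.out_conj_pow_minimalPeriod_mem S ((j l : S) : T) q.out⟩ : S) = j l' := by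
        apply Subtype.ext
        rw [hl', map_pow, inv_inv]
        rfl
      rw [h1, hνθ, hθ', ← hνθ, map_pow, isChar_linear_pow hν.1 hν.2.1, hνθ]
    simp only [hfac]
    rw [Finset.prod_pow_eq_pow_sum, ← Subgroup.index_eq_sum_minimalPeriod S]
    obtain ⟨m, hm⟩ := hS
    have h2 : θ l * θ l = 1 := by
      rw [← hνθ]
      exact rl_mul_self hν _
    rw [hm, pow_succ, pow_mul, pow_two, h2, one_pow, one_mul]

end Cfsg.Agent.Lib.Helper82.RO
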