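import Cfsg.Agent.Lib.Helper82.ADMain3
import Cfsg.Agent.Lib.Helper81.BlockOrth
import Cfsg.Agent.Lib.Helper81.BlockProj

set_option autoImplicit false
set_option linter.unusedSectionVars false
open Cfsg
open scoped ComplexConjugate
open Cfsg.Agent.Lib.Helper20 Cfsg.Agent.Lib.Helper81 Cfsg.Agent.Lib.Helper21

namespace Cfsg.Agent.Lib.Helper82

section Apply

variable {G : Type*} [Group G] [Fintype G] {p : ℕ} [Fact p.Prime] {M : Ideal AlgInt}
variable {N : Subgroup G} [N.Normal]

theorem sylow_le_of_not_dvd_index (hidx : ¬ p ∣ N.index) (P : Sylow p G) :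
    (P : Subgroup G) ≤ N := by
  intro x hx
  rw [← QuotientGroup.eq_one_iff]
  obtain ⟨k, hk⟩ := IsPGroup.iff_orderOf.1 P.2 ⟨x, hx⟩
  have hk' : orderOf x = p ^ k := by rw [← hk]; exact (Subgroup.orderOf_mk x hx).symm
  have h1 : orderOf (x : G ⧸ N) ∣ p ^ k := by
    rw [← hk']; exact orderOf_map_dvd (QuotientGroup.mk' N) x
  have h2 : orderOf (x : G ⧸ N) ∣ N.index := by
    rw [Subgroup.index_eq_card]; exact orderOf_dvd_natCard _
  have h3 : Nat.Coprime (p ^ k) N.index :=
    Nat.Coprime.pow_left k ((Nat.Prime.coprime_iff_not_dvd Fact.out).2 hidx)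
  have h4 : orderOf (x : G ⧸ N) = 1 := Nat.eq_one_of_dvd_coprimes h3 h1 h2
  exact orderOf_eq_one_iff.1 h4

theorem exists_rep_centralizer (P : Subgroup G)
    (hsup : N ⊔ Subgroup.centralizer (P : Set G) = ⊤) (q : G ⧸ N) :
    ∃ t : G, t ∈ Subgroup.centralizer (P : Set G) ∧ (t : G ⧸ N) = q := by
  obtain ⟨g, rfl⟩ := QuotientGroup.mk_surjective q
  have hg : g ∈ N ⊔ Subgroup.centralizer (P : Set G) := hsup ▸ Subgroup.mem_top g
  rw [← SetLike.mem_coe, Subgroup.normal_mul, Set.mem_mul] at hg
  obtain ⟨n, hn, c, hc, rfl⟩ := hg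
  refine ⟨c, hc, ?_⟩
  rw [QuotientGroup.mk_mul, (QuotientGroup.eq_one_iff n).2 hn, one_mul]

theorem le_centralizer_singleton {P : Subgroup G} {t : G}
    (ht : t ∈ Subgroup.centralizer (P : Set G)) : P ≤ Subgroup.centralizer ({t} : Set G) := by
  intro x hx
  rw [Subgroup.mem_centralizer_iff]
  intro h hh
  rw [Set.mem_singleton_iff.1 hh]
  exact ((Subgroup.mem_centralizer_iff.1 ht) x hx).symm

theorem not_dvd_index_centralizer (P : Sylow p G) {t : G}
    (ht : t ∈ Subgroup.centralizer ((P : Subgroup G) : Set G)) :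
    ¬ p ∣ (Subgroup.centralizer ({t} : Set G)).index := by
  intro h
  exact P.not_dvd_index (h.trans (Subgroup.index_dvd_of_le (le_centralizer_singleton ht)))

theorem not_dvd_index_centralizer_subgroupOf (hidx : ¬ p ∣ N.index) (P : Sylow p G) {t : G}
    (ht : t ∈ Subgroup.centralizer ((P : Subgroup G) : Set G)) :
    ¬ p ∣ ((Subgroup.centralizer ({t} : Set G)).subgroupOf N).index := by
  intro h
  have hPN := sylow_le_of_not_dvd_index hidx P
  have h1 : ((P : Subgroup G).subgroupOf N) ≤ (Subgroup.centralizer ({t} : Set G)).subgroupOf N :=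
    Subgroup.subgroupOf_mono N (le_centralizer_singleton ht)
  have h2 := h.trans (Subgroup.index_dvd_of_le h1)
  have h3 : ((P : Subgroup G).subgroupOf N).index ∣ (P : Subgroup G).index := by
    have := Subgroup.relIndex_mul_index hPN
    exact Dvd.intro _ this
  exact P.not_dvd_index (h2.trans h3)

/-- the coset system attached to `G = N C_G(P)` -/
noncomputable def cosetSys [Fintype N] (hM : IsPModular p M) (hidx : ¬ p ∣ N.index) (P : Sylow p G)
    (hsup : N ⊔ Subgroup.centralizer ((P : Subgroup G) : Set G) = ⊤) : CosetSys M N where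
  a := fun q => avg N (exists_rep_centralizer (P : Subgroup G) hsup q).choose
  inv := fun q => nInv_avg N _
  supp := fun q => by
    have h := supp_avg N (exists_rep_centralizer (P : Subgroup G) hsup q).choose
    rwa [(exists_rep_centralizer (P : Subgroup G) hsup q).choose_spec.2] at h
  sum := fun q => sum_avg N _
  loc := fun q g => avg_memLocalRing N hM _
    (not_dvd_index_centralizer_subgroupOf hidx P
      (exists_rep_centralizer (P : Subgroup G) hsup q).choose_spec.1) g

/-- only the trivial character of `G/N` inflates into the principal block -/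
theorem eq_trivIrr_of_inflIrr_mem [Fintype (G ⧸ N)] (hM : IsPModular p M) (hidx : ¬ p ∣ N.index)
    (P : Sylow p G) (hsup : N ⊔ Subgroup.centralizer ((P : Subgroup G) : Set G) = ⊤)
    (χ : IrrCharacter (G ⧸ N)) (hχ : inflIrr N χ ∈ principalBlock M G) : χ = trivIrr (G ⧸ N) := by
  by_contra hne
  have h10 : (χ : G ⧸ N → ℂ) 1 ≠ 0 := irr_one_ne_zero χ.2
  have hq : ∀ q : G ⧸ N, MemLocalIdeal M (1 - (χ : G ⧸ N → ℂ) q / (χ : G ⧸ N → ℂ) 1) := by
    intro q
    obtain ⟨t, ht, rfl⟩ := exists_rep_centralizer (P : Subgroup G) hsup q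
    have h1 : MemLocalIdeal M (centralChar (fun _ : G => (1 : ℂ)) t
        - centralChar (inflIrr N χ : G → ℂ) t) := hχ t
    have hnd := not_dvd_index_centralizer P ht
    have hunit : ¬ MemLocalIdeal M ((Subgroup.centralizer ({t} : Set G)).index : ℂ) := by
      rw [memLocalIdeal_natCast_iff hM]; exact hnd
    have hI0 : ((Subgroup.centralizer ({t} : Set G)).index : ℂ) ≠ 0 :=
      ne_zero_of_not_memLocalIdeal hM hunit
    have h2 : centralChar (fun _ : G => (1 : ℂ)) t - centralChar (inflIrr N χ : G → ℂ) t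
        = ((Subgroup.centralizer ({t} : Set G)).index : ℂ)
          * (1 - (χ : G ⧸ N → ℂ) (t : G ⧸ N) / (χ : G ⧸ N → ℂ) 1) := by
      simp only [centralChar, inflIrr_coe, Function.comp]
      rw [QuotientGroup.mk_one]
      ring
    have h3 : MemLocalRing M ((χ : G ⧸ N → ℂ) (t : G ⧸ N) / (χ : G ⧸ N → ℂ) 1) := by
      have h4 := memLocalRing_div hM (centralChar_memLocalRing hM (inflIrr N χ) t)
        (memLocalRing_natCast hM (Subgroup.centralizer ({t} : Set G)).index) hunit
      have h5 : centralChar (inflIrr N χ : G → ℂ) t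
          / ((Subgroup.centralizer ({t} : Set G)).index : ℂ)
          = (χ : G ⧸ N → ℂ) (t : G ⧸ N) / (χ : G ⧸ N → ℂ) 1 := by
        simp only [centralChar, inflIrr_coe, Function.comp]
        rw [QuotientGroup.mk_one]
        field_simp
      rwa [h5] at h4
    rw [h2, memLocalIdeal_mul_iff hM (memLocalRing_natCast hM _)
      (memLocalRing_sub hM (memLocalRing_one hM) h3)] at h1
    exact h1.resolve_left hunit
  have hsum := memLocalIdeal_sum hM Finset.univ _ (fun q _ => hq q)
  have h0 : ∑ q : G ⧸ N, (χ : G ⧸ N → ℂ) q = 0 := by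
    have h1 := classInner_irr_ne χ.2 (trivIrr (G ⧸ N)).2 (fun h => hne (Subtype.ext h))
    simp only [classInner, trivIrr_apply, map_one, mul_one] at h1
    rcases mul_eq_zero.1 h1 with h2 | h2
    · exact absurd (inv_eq_zero.1 h2) card_ne_zero_complex
    · exact h2
  rw [Finset.sum_sub_distrib, ← Finset.sum_div, h0, zero_div, sub_zero, Finset.sum_const,
    Finset.card_univ, nsmul_eq_mul, mul_one, memLocalIdeal_natCast_iff hM,
    ← Nat.card_eq_fintype_card, ← Subgroup.index_eq_card] at hsum
  exact hidx hsum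

theorem pushQ_principal [Fintype (G ⧸ N)] (hM : IsPModular p M) (hidx : ¬ p ∣ N.index)
    (P : Sylow p G) (hsup : N ⊔ Subgroup.centralizer ((P : Subgroup G) : Set G) = ⊤)
    (q : G ⧸ N) :
    pushQ N (blockCoeff (principalBlock M G)) q = (Fintype.card (G ⧸ N) : ℂ)⁻¹ := by
  rw [pushQ_blockCoeff]
  have : {χ : IrrCharacter (G ⧸ N) | inflIrr N χ ∈ principalBlock M G} = {trivIrr (G ⧸ N)} := by
    ext χ
    simp only [Set.mem_ofPred_eq, Set.mem_singleton_iff]
    constructor
    · exact eq_trivIrr_of_inflIrr_mem hM hidx P hsup χ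
    · rintro rfl
      exact sameBlock_refl hM _
  rw [this, blockCoeff_singleton, Nat.card_eq_fintype_card]
  simp

end Apply

end Cfsg.Agent.Lib.Helper82
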