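import Cfsg.Agent.Lib.Helper82.ADConv

set_option autoImplicit false
set_option linter.unusedSectionVars false
open Cfsg
open scoped ComplexConjugate
open Cfsg.Agent.Lib.Helper20 Cfsg.Agent.Lib.Helper81 Cfsg.Agent.Lib.Helper21

namespace Cfsg.Agent.Lib.Helper82

section Avg

variable {G : Type*} [Group G] [Fintype G] {p : ℕ} {M : Ideal AlgInt}

/-- the normalized sum of the `N`-conjugates of `x` -/
noncomputable def avg (N : Subgroup G) [Fintype N] (x : G) : G → ℂ := fun g => by
  classical exact (Nat.card N : ℂ)⁻¹ * ∑ m : N, (if (m : G) * x * (m : G)⁻¹ = g then 1 else 0)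

variable (N : Subgroup G) [Fintype N]

theorem nInv_avg (x : G) : NInv N (avg N x) := by
  classical
  intro m hm g
  simp only [avg]
  congr 1
  rw [← Equiv.sum_comp (Equiv.mulLeft (⟨m, hm⟩ : N))]
  apply Finset.sum_congr rfl; intro k _
  simp only [Equiv.coe_mulLeft, Subgroup.coe_mul]
  have : (m * (k : G) * x * (m * (k : G))⁻¹ = m * g * m⁻¹) ↔ ((k : G) * x * (k : G)⁻¹ = g) := by
    constructor
    · intro h
      have h2 : m * ((k : G) * x * (k : G)⁻¹) * m⁻¹ = m * g * m⁻¹ := by rw [← h]; group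
      exact mul_left_cancel (mul_right_cancel h2)
    · intro h; rw [← h]; group
  simp only [this]

theorem supp_avg [N.Normal] (x : G) : Supp N (x : G ⧸ N) (avg N x) := by
  classical
  intro g hg
  simp only [avg]
  rw [Finset.sum_eq_zero, mul_zero]
  intro m _
  rw [if_neg]
  intro h
  apply hg
  rw [← h, QuotientGroup.mk_mul, QuotientGroup.mk_mul, QuotientGroup.mk_inv,
    (QuotientGroup.eq_one_iff (m : G)).2 m.2]
  simp

theorem sum_avg (x : G) : ∑ g, avg N x g = 1 := by
  classical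
  simp only [avg]
  rw [← Finset.mul_sum, Finset.sum_comm]
  simp only [Finset.sum_ite_eq, Finset.mem_univ, if_true, Finset.sum_const, Finset.card_univ,
    nsmul_eq_mul, mul_one]
  rw [← Nat.card_eq_fintype_card]
  exact inv_mul_cancel₀ card_ne_zero_complex

theorem avg_memLocalRing (hM : IsPModular p M) (x : G)
    (hx : ¬ p ∣ ((Subgroup.centralizer ({x} : Set G)).subgroupOf N).index) (g : G) :
    MemLocalRing M (avg N x g) := by
  classical
  simp only [avg]
  rw [Finset.sum_boole]
  by_cases hne : ∃ m : N, (m : G) * x * (m : G)⁻¹ = g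
  · obtain ⟨m₀, hm₀⟩ := hne
    set C := (Subgroup.centralizer ({x} : Set G)).subgroupOf N with hC
    have hcard : (Finset.univ.filter (fun m : N => (m : G) * x * (m : G)⁻¹ = g)).card
        = Nat.card C := by
      rw [← Fintype.card_subtype, ← Nat.card_eq_fintype_card]
      apply Nat.card_congr
      refine ⟨fun m => ⟨m₀⁻¹ * m.1, ?_⟩, fun c => ⟨m₀ * c.1, ?_⟩, ?_, ?_⟩
      · rw [hC, Subgroup.mem_subgroupOf, Subgroup.mem_centralizer_iff]
        intro h hh
        rw [Set.mem_singleton_iff.1 hh]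
        have h1 : (m.1 : G) * x * (m.1 : G)⁻¹ = (m₀ : G) * x * (m₀ : G)⁻¹ := m.2.trans hm₀.symm
        simp only [Subgroup.coe_mul, Subgroup.coe_inv]
        have h2 : x = (m₀ : G)⁻¹ * ((m.1 : G) * x * (m.1 : G)⁻¹) * (m₀ : G) := by
          rw [h1]; group
        calc x * ((m₀ : G)⁻¹ * (m.1 : G))
            = ((m₀ : G)⁻¹ * ((m.1 : G) * x * (m.1 : G)⁻¹) * (m₀ : G)) * ((m₀ : G)⁻¹ * (m.1 : G)) := by
              rw [← h2]
          _ = (m₀ : G)⁻¹ * (m.1 : G) * x := by group
      · have h1 : ((c.1 : N) : G) ∈ Subgroup.centralizer ({x} : Set G) :=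
          Subgroup.mem_subgroupOf.1 c.2
        rw [Subgroup.mem_centralizer_iff] at h1
        have h2 := h1 x rfl
        simp only [Subgroup.coe_mul]
        rw [← hm₀]
        calc (m₀ : G) * (c.1 : G) * x * ((m₀ : G) * (c.1 : G))⁻¹
            = (m₀ : G) * ((c.1 : G) * x) * (c.1 : G)⁻¹ * (m₀ : G)⁻¹ := by group
          _ = (m₀ : G) * (x * (c.1 : G)) * (c.1 : G)⁻¹ * (m₀ : G)⁻¹ := by rw [h2]
          _ = _ := by group
      · intro m; apply Subtype.ext; simp
      · intro c; apply Subtype.ext; simp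
    rw [hcard]
    have h3 : (Nat.card N : ℂ) = (Nat.card C : ℂ) * (C.index : ℂ) := by
      rw [← Nat.cast_mul, Subgroup.card_mul_index]
    have hC0 : (Nat.card C : ℂ) ≠ 0 := card_ne_zero_complex
    have h4 : (Nat.card N : ℂ)⁻¹ * (Nat.card C : ℂ) = (C.index : ℂ)⁻¹ := by
      rw [h3, mul_inv, mul_comm, ← mul_assoc, mul_inv_cancel₀ hC0, one_mul]
    rw [h4]
    apply memLocalRing_inv (memLocalRing_natCast hM _)
    rw [memLocalIdeal_natCast_iff hM]
    exact hx
  · have : (Finset.univ.filter (fun m : N => (m : G) * x * (m : G)⁻¹ = g)) = ∅ := by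
      rw [Finset.filter_eq_empty_iff]
      intro m _ h; exact hne ⟨m, h⟩
    rw [this]
    simpa using memLocalRing_zero hM

end Avg

end Cfsg.Agent.Lib.Helper82
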