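import Cfsg.Agent.Lib.Helper82.ADAvg
import Cfsg.Agent.Lib.Helper82.ADKey
import Cfsg.Agent.Lib.Helper82.Ortho

set_option autoImplicit false
set_option linter.unusedSectionVars false
open Cfsg
open scoped ComplexConjugate
open Cfsg.Agent.Lib.Helper20 Cfsg.Agent.Lib.Helper81 Cfsg.Agent.Lib.Helper21

namespace Cfsg.Agent.Lib.Helper82

section Main

variable {G : Type*} [Group G] [Fintype G] {p : ℕ} {M : Ideal AlgInt}
variable (N : Subgroup G) [N.Normal] [Fintype N]

/-- the primitive central idempotent of `θ ∈ Irr(N)`, in the group algebra of `G` -/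
noncomputable def idemE (θ : IrrCharacter N) : G → ℂ := ext0 N (blockCoeff {θ})

variable {N}

theorem conv_idemE_ext0 (θ : IrrCharacter N) {z : N → ℂ} (hz : IsClassFunction N z) :
    conv (idemE N θ) (ext0 N z) = omega (θ : N → ℂ) z • idemE N θ := by
  rw [idemE, conv_ext0, conv_blockCoeff_singleton θ hz, ext0_smul]

theorem conv_idemE_of_supp_one (θ : IrrCharacter N) {f : G → ℂ} (hf : NInv N f)
    (hs : Supp N 1 f) :
    conv (idemE N θ) f = omega (θ : N → ℂ) (fun n : N => f n) • idemE N θ := by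
  conv_lhs => rw [eq_ext0_of_supp_one hs]
  exact conv_idemE_ext0 θ hf.res_classFunction

theorem conv_idemE_self (θ : IrrCharacter N) : conv (idemE N θ) (idemE N θ) = idemE N θ := by
  classical
  have h := conv_idemE_ext0 (G := G) θ (blockCoeff_classFunction ({θ} : Set (IrrCharacter N)))
  rw [omega_blockCoeff, if_pos (Set.mem_singleton θ), one_smul] at h
  exact h

theorem idemE_ne_zero (θ : IrrCharacter N) : idemE N θ ≠ (0 : G → ℂ) := by
  intro h
  have h1 := congrFun h 1
  rw [idemE, ext0_of_mem N _ N.one_mem, blockCoeff_singleton] at h1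
  have h2 : (θ : N → ℂ) 1 ≠ 0 := irr_one_ne_zero θ.2
  have h3 : (Nat.card N : ℂ) ≠ 0 := card_ne_zero_complex
  simp only [Pi.zero_apply, mul_eq_zero, inv_eq_zero, map_eq_zero] at h1
  rcases h1 with h1 | h1 | h1
  · exact h3 h1
  · exact h2 h1
  · exact h2 h1

theorem supp_idemE (θ : IrrCharacter N) : Supp N 1 (idemE N θ) := supp_ext0 _

theorem two_ways (θ : IrrCharacter N) {a a' f : G → ℂ} {q : G ⧸ N} (ha : NInv N a)
    (ha' : NInv N a') (hf : NInv N f) (hsa : Supp N q a) (hsa' : Supp N q⁻¹ a')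
    (hsf : Supp N q f) :
    omega (θ : N → ℂ) (fun n : N => conv a' a n) • conv (idemE N θ) f
      = omega (θ : N → ℂ) (fun n : N => conv f a' n) • conv (idemE N θ) a := by
  have hs1 : Supp N 1 (conv f a') := by
    have := hsf.conv hsa'; rwa [mul_inv_cancel] at this
  have hs2 : Supp N 1 (conv a' a) := by
    have := hsa'.conv hsa; rwa [inv_mul_cancel] at this
  have e1 : conv (conv (conv (idemE N θ) f) a') a
      = omega (θ : N → ℂ) (fun n : N => conv f a' n) • conv (idemE N θ) a := by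
    rw [conv_assoc (idemE N θ) f a', conv_idemE_of_supp_one θ (hf.conv ha') hs1, conv_smul_left]
  have e2 : conv (conv (conv (idemE N θ) f) a') a
      = omega (θ : N → ℂ) (fun n : N => conv a' a n) • conv (idemE N θ) f := by
    rw [conv_assoc (conv (idemE N θ) f) a' a, conv_assoc (idemE N θ) f (conv a' a)]
    have h3 : conv f (conv a' a) = conv (conv a' a) f := by
      rw [eq_ext0_of_supp_one hs2]
      exact hf.comm_ext0 _
    rw [h3, ← conv_assoc, conv_idemE_of_supp_one θ (ha'.conv ha) hs2, conv_smul_left]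
  rw [← e1, e2]

theorem omega_congr_sum (hM : IsPModular p M) (θ : IrrCharacter N) (hθ : θ ∈ principalBlock M N)
    {f : G → ℂ} (hf : NInv N f) (hs : Supp N 1 f) (hR : ∀ g, MemLocalRing M (f g)) :
    MemLocalIdeal M (omega (θ : N → ℂ) (fun n : N => f n) - ∑ g, f g) := by
  have h1 := omega_sub_memLocalIdeal hM (χ := trivIrr N) (ψ := θ) hθ hf.res_classFunction
    (fun n => hR n)
  have h2 : omega (trivIrr N : N → ℂ) (fun n : N => f n) = ∑ g, f g := by
    rw [← sum_res_of_supp_one hs]
    simp [omega]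
  rw [h2] at h1
  have := memLocalIdeal_neg h1
  rwa [neg_sub] at this

theorem pushQ_conv_const (a e : G → ℂ) (c : ℂ) (he : ∀ q, pushQ N e q = c) (u : G ⧸ N) :
    pushQ N (conv a e) u = (∑ g, a g) * c := by
  classical
  simp only [pushQ, conv]
  have h1 : ∀ g : G, (if (g : G ⧸ N) = u then ∑ x, a x * e (x⁻¹ * g) else 0)
      = ∑ x, a x * (if (g : G ⧸ N) = u then e (x⁻¹ * g) else 0) := by
    intro g
    split_ifs
    · rfl
    · simp
  simp only [h1]
  rw [Finset.sum_comm, Finset.sum_mul]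
  apply Finset.sum_congr rfl; intro x _
  rw [← Finset.mul_sum]
  congr 1
  rw [← he ((x : G ⧸ N)⁻¹ * u)]
  simp only [pushQ]
  rw [← Equiv.sum_comp (Equiv.mulLeft x)]
  apply Finset.sum_congr rfl; intro g _
  simp only [Equiv.coe_mulLeft, inv_mul_cancel_left]
  have : (((x * g : G) : G ⧸ N) = u) ↔ ((g : G ⧸ N) = (x : G ⧸ N)⁻¹ * u) := by
    rw [QuotientGroup.mk_mul, eq_inv_mul_iff_mul_eq]
  simp only [this]

end Main

end Cfsg.Agent.Lib.Helper82
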