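import Cfsg.Agent.Lib.Helper82.ADMain

set_option autoImplicit false
set_option linter.unusedSectionVars false
open Cfsg
open scoped ComplexConjugate
open Cfsg.Agent.Lib.Helper20 Cfsg.Agent.Lib.Helper81 Cfsg.Agent.Lib.Helper21

namespace Cfsg.Agent.Lib.Helper82

section Main2

variable {G : Type*} [Group G] [Fintype G] {p : ℕ} {M : Ideal AlgInt}
variable {N : Subgroup G} [N.Normal] [Fintype N]

/-- a system of locally integral, normalized `N`-invariant elements, one in each coset -/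
structure CosetSys (M : Ideal AlgInt) (N : Subgroup G) [N.Normal] where
  a : G ⧸ N → G → ℂ
  inv : ∀ q, NInv N (a q)
  supp : ∀ q, Supp N q (a q)
  sum : ∀ q, ∑ g, a q g = 1
  loc : ∀ q g, MemLocalRing M (a q g)

variable (S : CosetSys M N) (θ : IrrCharacter N)

noncomputable def CosetSys.u (q : G ⧸ N) : G → ℂ := conv (idemE N θ) (S.a q)

noncomputable def CosetSys.nu (q : G ⧸ N) : ℂ :=
  omega (θ : N → ℂ) (fun n : N => conv (S.a q⁻¹) (S.a q) n)

noncomputable def CosetSys.coef (F : G → ℂ) (q : G ⧸ N) : ℂ :=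
  omega (θ : N → ℂ) (fun n : N => conv (cres N q F) (S.a q⁻¹) n) / S.nu θ q

variable {θ}

theorem CosetSys.pair_congr (hM : IsPModular p M) (hθ : θ ∈ principalBlock M N) {r s : G ⧸ N}
    (hrs : r * s = 1) :
    MemLocalIdeal M (omega (θ : N → ℂ) (fun n : N => conv (S.a r) (S.a s) n) - 1) := by
  have hs : Supp N 1 (conv (S.a r) (S.a s)) := by
    have := (S.supp r).conv (S.supp s); rwa [hrs] at this
  have h := omega_congr_sum hM θ hθ ((S.inv r).conv (S.inv s)) hs
    (conv_memLocalRing hM (S.loc r) (S.loc s))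
  rwa [sum_conv, S.sum, S.sum, one_mul] at h

theorem unit_of_congr_one (hM : IsPModular p M) {z : ℂ} (h : MemLocalIdeal M (z - 1)) :
    MemLocalRing M z ∧ ¬ MemLocalIdeal M z ∧ z ≠ 0 := by
  have h1 : MemLocalRing M z := memLocalRing_of_sub hM h (memLocalRing_one hM)
  have h2 : ¬ MemLocalIdeal M z := by
    intro hz
    apply not_memLocalIdeal_one hM
    have := memLocalIdeal_sub hM hz h
    simpa using this
  exact ⟨h1, h2, ne_zero_of_not_memLocalIdeal hM h2⟩

theorem CosetSys.nu_congr (hM : IsPModular p M) (hθ : θ ∈ principalBlock M N) (q : G ⧸ N) :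
    MemLocalIdeal M (S.nu θ q - 1) := S.pair_congr hM hθ (inv_mul_cancel q)

theorem CosetSys.supp_u (q : G ⧸ N) : Supp N q (S.u θ q) := by
  have := (supp_idemE θ).conv (S.supp q); rwa [one_mul] at this

theorem CosetSys.u_ne_zero (hM : IsPModular p M) (hθ : θ ∈ principalBlock M N) (q : G ⧸ N) :
    S.u θ q ≠ 0 := by
  intro h
  have hs : Supp N 1 (conv (S.a q) (S.a q⁻¹)) := by
    have := (S.supp q).conv (S.supp q⁻¹); rwa [mul_inv_cancel] at this
  have h1 : conv (S.u θ q) (S.a q⁻¹)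
      = omega (θ : N → ℂ) (fun n : N => conv (S.a q) (S.a q⁻¹) n) • idemE N θ := by
    rw [CosetSys.u, conv_assoc, conv_idemE_of_supp_one θ ((S.inv q).conv (S.inv q⁻¹)) hs]
  rw [h] at h1
  have h2 : conv (0 : G → ℂ) (S.a q⁻¹) = 0 := by funext k; simp [conv]
  rw [h2] at h1
  have h3 := (unit_of_congr_one hM (S.pair_congr hM hθ (mul_inv_cancel q))).2.2
  rcases smul_eq_zero.1 h1.symm with h4 | h4
  · exact h3 h4
  · exact idemE_ne_zero θ h4

theorem CosetSys.conv_cres (hM : IsPModular p M) (hθ : θ ∈ principalBlock M N) {F : G → ℂ}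
    (hF : NInv N F) (q : G ⧸ N) :
    conv (idemE N θ) (cres N q F) = S.coef θ F q • S.u θ q := by
  have h := two_ways θ (S.inv q) (S.inv q⁻¹) (hF.cres q) (S.supp q) (S.supp q⁻¹) (supp_cres q F)
  have h0 := (unit_of_congr_one hM (S.nu_congr hM hθ q)).2.2
  rw [CosetSys.coef, CosetSys.u, div_eq_inv_mul, mul_smul, ← h]
  change _ = (S.nu θ q)⁻¹ • (S.nu θ q • _)
  rw [smul_smul, inv_mul_cancel₀ h0, one_smul]

theorem CosetSys.expand [Fintype (G ⧸ N)] (hM : IsPModular p M) (hθ : θ ∈ principalBlock M N)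
    {F : G → ℂ} (hF : NInv N F) :
    conv (idemE N θ) F = ∑ q : G ⧸ N, S.coef θ F q • S.u θ q := by
  conv_lhs => rw [← sum_cres (N := N) F]
  rw [conv_sum_right]
  apply Finset.sum_congr rfl; intro q _
  exact S.conv_cres hM hθ hF q

theorem cres_memLocalRing (hM : IsPModular p M) {F : G → ℂ} (hR : ∀ g, MemLocalRing M (F g))
    (q : G ⧸ N) (g : G) : MemLocalRing M (cres N q F g) := by
  by_cases h : (g : G ⧸ N) = q
  · rw [cres_of_eq F h]; exact hR g
  · rw [cres_of_ne F h]; exact memLocalRing_zero hM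

theorem CosetSys.coef_congr (hM : IsPModular p M) (hθ : θ ∈ principalBlock M N) {F : G → ℂ}
    (hF : NInv N F) (hR : ∀ g, MemLocalRing M (F g)) (q : G ⧸ N) :
    MemLocalIdeal M (S.coef θ F q - pushQ N F q) := by
  have hs : Supp N 1 (conv (cres N q F) (S.a q⁻¹)) := by
    have := (supp_cres q F).conv (S.supp q⁻¹); rwa [mul_inv_cancel] at this
  have h := omega_congr_sum hM θ hθ ((hF.cres q).conv (S.inv q⁻¹)) hs
    (conv_memLocalRing hM (cres_memLocalRing hM hR q) (S.loc q⁻¹))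
  rw [sum_conv, S.sum, mul_one, sum_cres_eq_pushQ] at h
  obtain ⟨h1, h2, h3⟩ := unit_of_congr_one hM (S.nu_congr hM hθ q)
  have hP : MemLocalRing M (pushQ N F q) := by
    rw [← sum_cres_eq_pushQ]
    exact memLocalRing_sum hM _ _ (fun g _ => cres_memLocalRing hM hR q g)
  have e : S.coef θ F q - pushQ N F q
      = ((omega (θ : N → ℂ) (fun n : N => conv (cres N q F) (S.a q⁻¹) n) - pushQ N F q)
          - pushQ N F q * (S.nu θ q - 1)) / S.nu θ q := by
    rw [CosetSys.coef]; field_simp; ring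
  rw [e]
  exact memLocalIdeal_div hM (memLocalIdeal_sub hM h
    (memLocalIdeal_mul_left hM hP (S.nu_congr hM hθ q))) h1 h2

theorem CosetSys.cres_sum_u [Fintype (G ⧸ N)] (α : G ⧸ N → ℂ) (r : G ⧸ N) :
    cres N r (∑ q : G ⧸ N, α q • S.u θ q) = α r • S.u θ r := by
  classical
  rw [cres_sum, Finset.sum_eq_single r]
  · rw [cres_smul, cres_eq_self (S.supp_u r)]
  · intro q _ hq
    rw [cres_smul, cres_eq_zero (Ne.symm hq) (S.supp_u q), smul_zero]
  · intro h; exact absurd (Finset.mem_univ _) h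

theorem CosetSys.indep [Fintype (G ⧸ N)] (hM : IsPModular p M) (hθ : θ ∈ principalBlock M N)
    {α β : G ⧸ N → ℂ} (h : ∑ q : G ⧸ N, α q • S.u θ q = ∑ q : G ⧸ N, β q • S.u θ q) : α = β := by
  funext r
  have h1 := congrArg (cres N r) h
  rw [S.cres_sum_u, S.cres_sum_u] at h1
  have h2 : (α r - β r) • S.u θ r = 0 := by rw [sub_smul, h1, sub_self]
  rcases smul_eq_zero.1 h2 with h3 | h3
  · exact sub_eq_zero.1 h3
  · exact absurd h3 (S.u_ne_zero hM hθ r)

end Main2

end Cfsg.Agent.Lib.Helper82
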