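import Cfsg.Agent.Lib.Helper82.ADMain2

set_option autoImplicit false
set_option linter.unusedSectionVars false
open Cfsg
open scoped ComplexConjugate
open Cfsg.Agent.Lib.Helper20 Cfsg.Agent.Lib.Helper81 Cfsg.Agent.Lib.Helper21

namespace Cfsg.Agent.Lib.Helper82

section Main3

variable {G : Type*} [Group G] [Fintype G] {p : ℕ} {M : Ideal AlgInt}
variable {N : Subgroup G} [N.Normal] [Fintype N]
variable {θ : IrrCharacter N}

/-- If `e` is a locally integral central idempotent of `ℂG` whose image in `ℂ[G/N]` is the trivial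
idempotent, and every coset of `N` carries a normalized locally integral `N`-invariant element,
then `ω_θ(e|_N) = 1 / |G : N|` for every `θ` in the principal block of `N`. -/
theorem CosetSys.main (S : CosetSys M N) [Fintype (G ⧸ N)] [DecidableEq (G ⧸ N)] (hM : IsPModular p M)
    (hθ : θ ∈ principalBlock M N) (e : G → ℂ) (he : IsClassFunction G e) (hee : conv e e = e)
    (heR : ∀ g, MemLocalRing M (e g)) (c : ℂ) (hc : (Fintype.card (G ⧸ N) : ℂ) * c = 1)
    (hpush : ∀ q, pushQ N e q = c) :
    (Fintype.card (G ⧸ N) : ℂ) * omega (θ : N → ℂ) (fun n : N => e n) = 1 := by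
  set E := idemE N θ with hE
  set ι := conv E e with hι0
  have heN : NInv N e := NInv.of_classFunction N he
  have hX : ∀ h : G → ℂ, conv ι (conv E h) = conv E (conv e h) := by
    intro h
    rw [hι0, conv_assoc E e (conv E h), ← conv_assoc e E h,
      ← conv_comm_of_classFunction E he, conv_assoc E e h, ← conv_assoc E E (conv e h),
      hE, conv_idemE_self]
  have hιι : conv ι ι = ι := by
    conv_lhs => rw [hι0]
    rw [← hι0, hX e, hee]
  let γ : G ⧸ N → ℂ := fun u => S.coef θ e u
  let A : Matrix (G ⧸ N) (G ⧸ N) ℂ := fun u s => S.coef θ (conv e (S.a s)) u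
  have hι : ι = ∑ u : G ⧸ N, γ u • S.u θ u := S.expand hM hθ heN
  have hιu : ∀ s, conv ι (S.u θ s) = ∑ u : G ⧸ N, A u s • S.u θ u := by
    intro s
    rw [CosetSys.u, ← hE, hX]
    exact S.expand hM hθ (heN.conv (S.inv s))
  have hcs : ∀ α : G ⧸ N → ℂ, conv ι (∑ s : G ⧸ N, α s • S.u θ s)
      = ∑ u : G ⧸ N, (A.mulVec α u) • S.u θ u := by
    intro α
    rw [conv_sum_right]
    simp only [conv_smul_right, hιu, Finset.smul_sum, smul_smul]
    rw [Finset.sum_comm]
    apply Finset.sum_congr rfl; intro u _
    rw [← Finset.sum_smul]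
    congr 1
    simp only [Matrix.mulVec, dotProduct]
    apply Finset.sum_congr rfl; intro s _
    ring
  have hAγ : A.mulVec γ = γ := by
    apply S.indep hM hθ
    rw [← hcs γ, ← hι, hιι]
  have hAA : ∀ s, A.mulVec (fun u => A u s) = fun u => A u s := by
    intro s
    apply S.indep hM hθ
    rw [← hcs (fun u => A u s), ← hιu s, ← conv_assoc, hιι]
  have hAc : ∀ u s, MemLocalIdeal M (A u s - c) := by
    intro u s
    have h1 := S.coef_congr hM hθ (heN.conv (S.inv s)) (conv_memLocalRing hM heR (S.loc s)) u
    rw [← conv_comm_of_classFunction (S.a s) he, pushQ_conv_const (S.a s) e c hpush u, S.sum,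
      one_mul, conv_comm_of_classFunction (S.a s) he] at h1
    exact h1
  have hγc : ∀ u, MemLocalIdeal M (γ u - c) := by
    intro u
    have h1 := S.coef_congr hM hθ heN heR u
    rwa [hpush u] at h1
  have hg0 : (∑ u, γ u) ≠ 0 := by
    have h1 : MemLocalIdeal M ((∑ u, γ u) - 1) := by
      have : (∑ u, γ u) - 1 = ∑ u, (γ u - c) := by
        rw [Finset.sum_sub_distrib, Finset.sum_const, Finset.card_univ, nsmul_eq_mul, hc]
      rw [this]
      exact memLocalIdeal_sum hM _ _ (fun u _ => hγc u)
    exact (unit_of_congr_one hM h1).2.2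
  have key : ∀ s, (∑ u, γ u) • (fun u => A u s) = (∑ u, A u s) • γ := fun s =>
    fixed_vectors_proportional hM c A hAc γ (fun u => A u s) hAγ (hAA s)
  have htr : ∑ s, A s s = 1 := by
    have h1 : (∑ u, γ u) * ∑ s, A s s = ∑ u, γ u := by
      rw [Finset.mul_sum]
      have h2 : ∀ s, (∑ u, γ u) * A s s = (∑ u, A u s) * γ s := by
        intro s
        have := congrFun (key s) s
        simpa using this
      rw [Finset.sum_congr rfl (fun s _ => h2 s)]
      simp only [Finset.sum_mul]
      rw [Finset.sum_comm]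
      apply Finset.sum_congr rfl; intro u _
      have := congrFun hAγ u
      simpa [Matrix.mulVec, dotProduct] using this
    exact mul_left_cancel₀ hg0 (h1.trans (mul_one _).symm)
  have hdiag : ∀ s, A s s = omega (θ : N → ℂ) (fun n : N => e n) := by
    intro s
    have h1 : cres N s (conv ι (S.u θ s)) = A s s • S.u θ s := by
      rw [hιu s, S.cres_sum_u]
    have h2 : cres N s (conv ι (S.u θ s)) = conv (cres N 1 ι) (S.u θ s) := by
      have := cres_conv_left (q := 1) (r := s) ι (S.supp_u (θ := θ) s)
      rwa [one_mul] at this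
    have h3 : cres N 1 ι = conv E (cres N 1 e) := by
      have := cres_conv_right (q := 1) (r := 1) (supp_idemE θ) e
      rwa [one_mul] at this
    have h4 : conv E (cres N 1 e) = omega (θ : N → ℂ) (fun n : N => cres N 1 e n) • E :=
      conv_idemE_of_supp_one θ (heN.cres 1) (supp_cres 1 e)
    have h5 : (fun n : N => cres N 1 e n) = fun n : N => e n := by
      funext n
      exact cres_of_eq e ((QuotientGroup.eq_one_iff _).2 n.2)
    rw [h2, h3, h4, h5, conv_smul_left, CosetSys.u, ← hE, ← conv_assoc, hE, conv_idemE_self] at h1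
    have h6 : (omega (θ : N → ℂ) (fun n : N => e n) - A s s) • S.u θ s = 0 := by
      rw [sub_smul, CosetSys.u, h1, sub_self]
    rcases smul_eq_zero.1 h6 with h7 | h7
    · exact (sub_eq_zero.1 h7).symm
    · exact absurd h7 (S.u_ne_zero hM hθ s)
  rw [Finset.sum_congr rfl (fun s _ => hdiag s), Finset.sum_const, Finset.card_univ,
    nsmul_eq_mul] at htr
  exact htr

end Main3

end Cfsg.Agent.Lib.Helper82
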