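import Mathlib
import Cfsg.Agent.Lib.Helper80.GARes
import Cfsg.Agent.Lib.Helper82.ADKey

set_option autoImplicit false
set_option linter.unusedSectionVars false
open Cfsg
open Cfsg.Agent.Lib.Helper81 Cfsg.Agent.Lib.Helper80

namespace Cfsg.Agent.Lib.Helper82

variable {p : ℕ} {M : Ideal AlgInt}

/-- Lifting lemma: locally integral vectors whose reductions are linearly independent over the
residue field are linearly independent over `ℂ`. -/
theorem linearIndependent_of_red (hM : IsPModular p M) {ι G : Type*} [Finite ι] [Finite G]
    (v : ι → G → ℂ) (hv : ∀ i, RV M (v i))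
    (h : LinearIndependent (Kr hM) (fun i => (red hM (v i) : GA (Kr hM) G))) :
    LinearIndependent ℂ v := by
  classical
  have := Fintype.ofFinite ι
  have := Fintype.ofFinite G
  have h' : LinearIndependent (Kr hM) (fun i => (fun g => resC hM (v i g) : G → Kr hM)) := h
  set w : ι → G → Kr hM := fun i g => resC hM (v i g) with hw
  have hinj : LinearMap.ker (Fintype.linearCombination (Kr hM) w) = ⊥ := by
    rw [LinearMap.ker_eq_bot]
    exact linearIndependent_iff_injective_fintypeLinearCombination.1 h'
  obtain ⟨φ, hφ⟩ := LinearMap.exists_leftInverse_of_injective _ hinj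
  -- coefficients of the dual functionals
  let c : ι → G → Kr hM := fun j g => φ (Pi.single g 1) j
  have hc : ∀ (u : G → Kr hM) (j : ι), φ u j = ∑ g, u g * c j g := by
    intro u j
    have h1 := LinearMap.pi_apply_eq_sum_univ φ u
    rw [h1, Finset.sum_apply]
    refine Finset.sum_congr rfl (fun g _ => ?_)
    have h2 : (fun j => if g = j then (1 : Kr hM) else 0) = Pi.single g 1 := by
      funext j
      rw [Pi.single_apply]
      simp [eq_comm]
    rw [h2]
    simp [c]
  have hdual : ∀ i j : ι, ∑ g, w i g * c j g = if j = i then 1 else 0 := by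
    intro i j
    rw [← hc]
    have h1 : φ (Fintype.linearCombination (Kr hM) w (Pi.single i 1)) = Pi.single i 1 := by
      have := congrArg (fun f => f (Pi.single i 1)) hφ
      simpa using this
    have h2 : Fintype.linearCombination (Kr hM) w (Pi.single i 1) = w i := by
      rw [Fintype.linearCombination_apply]
      rw [Finset.sum_eq_single i]
      · simp
      · intro k _ hk
        simp [Pi.single_eq_of_ne hk]
      · intro hi; exact absurd (Finset.mem_univ _) hi
    rw [h2] at h1
    rw [h1, Pi.single_apply]
  let C : ι → G → ℂ := fun j g => liftC hM (c j g)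
  let N : Matrix ι ι ℂ := fun j i => ∑ g, v i g * C j g
  have hNmem : ∀ j i, MemLocalRing M (N j i) := fun j i =>
    memLocalRing_sum hM _ _ (fun g _ => memLocalRing_mul hM (hv i g) (liftC_mem hM _))
  have hNres : ∀ j i, resC hM (N j i) = if j = i then 1 else 0 := by
    intro j i
    show resC hM (∑ g, v i g * C j g) = _
    rw [resC_sum hM _ _ (fun g _ => memLocalRing_mul hM (hv i g) (liftC_mem hM _)), ← hdual i j]
    refine Finset.sum_congr rfl (fun g _ => ?_)
    rw [resC_mul hM (hv i g) (liftC_mem hM _), resC_liftC]
  have hE : ∀ j i, MemLocalIdeal M ((1 - N) j i) := by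
    intro j i
    have h1 : MemLocalRing M ((1 : Matrix ι ι ℂ) j i) := by
      rw [Matrix.one_apply]
      split_ifs
      · exact memLocalRing_one hM
      · exact memLocalRing_zero hM
    rw [Matrix.sub_apply, ← resC_eq_iff hM h1 (hNmem j i), hNres, Matrix.one_apply]
    split_ifs
    · exact resC_one hM
    · exact resC_zero hM
  have hdet : N.det ≠ 0 := by
    have := det_one_sub_ne_zero hM (1 - N) hE
    rwa [sub_sub_cancel] at this
  rw [Fintype.linearIndependent_iff]
  intro a ha
  have hNa : N.mulVec a = 0 := by
    funext j
    show ∑ i, N j i * a i = 0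
    have h1 : ∀ g, ∑ i, a i * v i g = 0 := by
      intro g
      have := congrFun ha g
      simpa [Finset.sum_apply] using this
    calc ∑ i, N j i * a i = ∑ i, ∑ g, (a i * v i g) * C j g := by
          refine Finset.sum_congr rfl (fun i _ => ?_)
          show (∑ g, v i g * C j g) * a i = _
          rw [Finset.sum_mul]
          exact Finset.sum_congr rfl (fun g _ => by ring)
      _ = ∑ g, (∑ i, a i * v i g) * C j g := by
          rw [Finset.sum_comm]
          exact Finset.sum_congr rfl (fun g _ => by rw [Finset.sum_mul])
      _ = 0 := by simp [h1]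
  have := Matrix.eq_zero_of_mulVec_eq_zero hdet hNa
  intro i
  exact congrFun this i

/-- The span of the reductions has dimension at most the dimension of the complex span. -/
theorem finrank_span_red_le (hM : IsPModular p M) {ι G : Type*} [Finite G]
    (v : ι → G → ℂ) (hv : ∀ i, RV M (v i)) :
    Module.finrank (Kr hM) (Submodule.span (Kr hM)
      (Set.range (fun i => (red hM (v i) : GA (Kr hM) G)))) ≤
    Module.finrank ℂ (Submodule.span ℂ (Set.range v)) := by
  classical
  obtain ⟨f, hf, -, hli⟩ := Submodule.exists_fun_fin_finrank_span_eq (Kr hM)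
    (Set.range (fun i => (red hM (v i) : GA (Kr hM) G)))
  choose idx hidx using hf
  have hli' : LinearIndependent (Kr hM)
      (fun k => (red hM (v (idx k)) : GA (Kr hM) G)) := by
    have : (fun k => (red hM (v (idx k)) : GA (Kr hM) G)) = f := funext hidx
    rw [this]; exact hli
  have h1 := linearIndependent_of_red hM (fun k => v (idx k)) (fun k => hv _) hli'
  have h2 := finrank_span_eq_card h1
  rw [Fintype.card_fin] at h2
  rw [← h2]
  apply Submodule.finrank_mono
  apply Submodule.span_mono
  rintro _ ⟨k, rfl⟩
  exact ⟨idx k, rfl⟩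

end Cfsg.Agent.Lib.Helper82
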