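import Mathlib
import Cfsg.Agent.Lib.Helper80.GALink
import Cfsg.Agent.Lib.Helper82.ADConv
import Cfsg.Agent.Lib.Helper82.BrLift

set_option autoImplicit false
set_option linter.unusedSectionVars false
open Cfsg
open Cfsg.Agent.Lib.Helper81 Cfsg.Agent.Lib.Helper80

namespace Cfsg.Agent.Lib.Helper82

variable {p : ℕ} {M : Ideal AlgInt}
variable {G : Type*} [Group G] [Fintype G]

/-- left convolution as a linear map -/
noncomputable def cL (a : G → ℂ) : (G → ℂ) →ₗ[ℂ] (G → ℂ) where
  toFun f := conv a f
  map_add' f g := conv_add_right a f g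
  map_smul' r f := conv_smul_right r a f

theorem cL_apply (a f : G → ℂ) : cL a f = conv a f := rfl

theorem cL_eq_toLin' [DecidableEq G] (a : G → ℂ) : cL a = Matrix.toLin' (Lm a) := by
  apply LinearMap.ext
  intro f
  funext x
  rw [cL_apply, Matrix.toLin'_apply]
  show ∑ g, a g * f (g⁻¹ * x) = ∑ y, Lm a x y * f y
  refine Fintype.sum_equiv ((Equiv.inv G).trans (Equiv.mulRight x)) _ _ (fun g => ?_)
  simp [Lm_apply]

theorem trace_cL (a : G → ℂ) : LinearMap.trace ℂ (G → ℂ) (cL a) = (Fintype.card G : ℂ) * a 1 := by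
  classical
  rw [cL_eq_toLin', Matrix.trace_toLin'_eq]
  simp [Matrix.trace, Lm_apply]

theorem finrank_range_cL {e : G → ℂ} (he : conv e e = e) :
    (Module.finrank ℂ (LinearMap.range (cL e)) : ℂ) = (Fintype.card G : ℂ) * e 1 := by
  have hid : IsIdempotentElem (cL e) := by
    apply LinearMap.ext
    intro f
    show conv e (conv e f) = conv e f
    rw [← conv_assoc, he]
  rw [← trace_cL, (LinearMap.IsIdempotentElem.isProj_range _ hid).trace]

/-- delta function -/
noncomputable def dlt (x : G) : G → ℂ := fun g => by classical exact if g = x then 1 else 0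

theorem dlt_apply [DecidableEq G] (x g : G) : dlt x g = if g = x then 1 else 0 := by
  unfold dlt; congr

theorem RV_dlt (hM : IsPModular p M) (x : G) : RV M (dlt x) := fun g => by
  classical
  rw [dlt_apply]
  split_ifs
  · exact memLocalRing_one hM
  · exact memLocalRing_zero hM

theorem red_dlt (hM : IsPModular p M) (x : G) : red hM (dlt x) = GA.of x := by
  classical
  ext g
  rw [red_apply, dlt_apply, GA.of_apply]
  split_ifs
  · exact resC_one hM
  · exact resC_zero hM

/-- The rank of left multiplication by `red Z` is bounded by the rank of any complex left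
convolution operator fixing `Z`. -/
theorem finrank_range_mulLeft_red_le (hM : IsPModular p M) {Z e : G → ℂ} (hZ : RV M Z)
    (heZ : conv e Z = Z) :
    Module.finrank (Kr hM) (LinearMap.range (LinearMap.mulLeft (Kr hM) (red hM Z))) ≤
      Module.finrank ℂ (LinearMap.range (cL e)) := by
  have h1 : LinearMap.range (LinearMap.mulLeft (Kr hM) (red hM Z)) ≤
      Submodule.span (Kr hM) (Set.range (fun x : G =>
        (red hM (conv Z (dlt x)) : GA (Kr hM) G))) := by
    rintro _ ⟨y, rfl⟩
    rw [LinearMap.mulLeft_apply]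
    have hy : red hM Z * y = ∑ x, red hM Z * (y x • (GA.of x : GA (Kr hM) G)) := by
      rw [← Finset.mul_sum, ← GA.eq_sum_of y]
    rw [hy]
    refine Submodule.sum_mem _ (fun x _ => ?_)
    rw [mul_smul_comm]
    refine Submodule.smul_mem _ _ (Submodule.subset_span ⟨x, ?_⟩)
    show red hM (conv Z (dlt x)) = _
    rw [red_conv hM hZ (RV_dlt hM x), red_dlt]
  have h2 := finrank_span_red_le hM (fun x : G => conv Z (dlt x))
    (fun x => RV.conv hM hZ (RV_dlt hM x))
  have h3 : Submodule.span ℂ (Set.range (fun x : G => conv Z (dlt x))) ≤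
      LinearMap.range (cL e) := by
    rw [Submodule.span_le]
    rintro _ ⟨x, rfl⟩
    refine ⟨conv Z (dlt x), ?_⟩
    rw [cL_apply, ← conv_assoc, heZ]
  exact (Submodule.finrank_mono h1).trans (h2.trans (Submodule.finrank_mono h3))

end Cfsg.Agent.Lib.Helper82
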