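import Mathlib
import Cfsg.Agent.Lib.Helper21.Cover
import Cfsg.Agent.Lib.Helper81.Heights
import Cfsg.Agent.Lib.Helper82.BrDim

set_option autoImplicit false
set_option linter.unusedSectionVars false
open Cfsg
open Cfsg.Agent.Lib.Helper81 Cfsg.Agent.Lib.Helper80 Cfsg.Agent.Lib.Helper21

namespace Cfsg.Agent.Lib.Helper82

variable {p : ℕ} {M : Ideal AlgInt}
variable {G : Type*} [Group G] [Fintype G]

theorem classFunction_add' {a b : G → ℂ} (ha : IsClassFunction G a) (hb : IsClassFunction G b) :
    IsClassFunction G (a + b) := fun g h => by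
  simp [ha g h, hb g h]

theorem blockCoeff_pair {χ₁ χ₂ : IrrCharacter G} (h12 : χ₁ ≠ χ₂) :
    blockCoeff ({χ₁, χ₂} : Set (IrrCharacter G)) = blockCoeff {χ₁} + blockCoeff {χ₂} := by
  classical
  apply eq_of_omega_eq (blockCoeff_classFunction _)
    (classFunction_add' (blockCoeff_classFunction _) (blockCoeff_classFunction _))
  intro ψ
  rw [omega_add, omega_blockCoeff, omega_blockCoeff, omega_blockCoeff]
  simp only [Set.mem_insert_iff, Set.mem_singleton_iff]
  by_cases h1 : ψ = χ₁
  · have h2 : ψ ≠ χ₂ := fun h => h12 (h1.symm.trans h)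
    simp [h1, h12]
  · by_cases h2 : ψ = χ₂
    · simp [h2, Ne.symm h12]
    · simp [h1, h2]

theorem blockCoeff_singleton_one (χ : IrrCharacter G) :
    (Fintype.card G : ℂ) * blockCoeff ({χ} : Set (IrrCharacter G)) 1
      = ((charDegree (χ : G → ℂ) ^ 2 : ℕ) : ℂ) := by
  have hG : (Fintype.card G : ℂ) ≠ 0 := by
    exact_mod_cast Fintype.card_ne_zero
  unfold blockCoeff
  rw [finsum_mem_singleton, irr_one_eq, Nat.card_eq_fintype_card, ← mul_assoc,
    mul_inv_cancel₀ hG, one_mul]
  simp [pow_two]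

theorem finrank_range_cL_singleton (χ : IrrCharacter G) :
    Module.finrank ℂ (LinearMap.range (cL (blockCoeff ({χ} : Set (IrrCharacter G)))))
      = charDegree (χ : G → ℂ) ^ 2 := by
  have h := finrank_range_cL (Helper80.conv_blockCoeff_self ({χ} : Set (IrrCharacter G)))
  rw [blockCoeff_singleton_one] at h
  exact_mod_cast h

theorem conv_dl_left (a : G → ℂ) : conv dl a = a := by
  classical
  funext k
  unfold Helper81.conv
  rw [Finset.sum_eq_single 1]
  · simp [dl_apply]
  · intro g _ hg
    simp [dl_apply, hg]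
  · intro h; exact absurd (Finset.mem_univ _) h

theorem conv_dl_right (a : G → ℂ) : conv a dl = a := by
  rw [conv_comm_of_classFunction a dl_classFunction, conv_dl_left]

theorem conv_sub_left (a b c : G → ℂ) : conv (a - b) c = conv a c - conv b c := by
  have := conv_add_left (a - b) b c
  rw [sub_add_cancel] at this
  rw [this, add_sub_cancel_right]

theorem conv_sub_right (a b c : G → ℂ) : conv a (b - c) = conv a b - conv a c := by
  have := conv_add_right a (b - c) c
  rw [sub_add_cancel] at this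
  rw [this, add_sub_cancel_right]

/-- the complementary idempotent -/
theorem finrank_range_cL_compl {χ₁ χ₂ : IrrCharacter G} (h12 : χ₁ ≠ χ₂) :
    Module.finrank ℂ (LinearMap.range (cL (dl - blockCoeff ({χ₁, χ₂} : Set (IrrCharacter G)))))
      + (charDegree (χ₁ : G → ℂ) ^ 2 + charDegree (χ₂ : G → ℂ) ^ 2) = Fintype.card G := by
  classical
  set e := blockCoeff ({χ₁, χ₂} : Set (IrrCharacter G)) with he
  have hee : conv e e = e := Helper80.conv_blockCoeff_self _
  have hid : conv (dl - e) (dl - e) = dl - e := by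
    rw [conv_sub_left, conv_sub_right, conv_sub_right, conv_dl_left, conv_dl_left, conv_dl_right,
      hee]
    simp
  have h := finrank_range_cL hid
  have h1 : (Fintype.card G : ℂ) * ((dl - e : G → ℂ) 1) = (Fintype.card G : ℂ) -
      (((charDegree (χ₁ : G → ℂ) ^ 2 : ℕ) : ℂ) + ((charDegree (χ₂ : G → ℂ) ^ 2 : ℕ) : ℂ)) := by
    rw [Pi.sub_apply, dl_apply, if_pos rfl, he, blockCoeff_pair h12, Pi.add_apply, mul_sub,
      mul_one, mul_add, blockCoeff_singleton_one, blockCoeff_singleton_one]
  rw [h1] at h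
  have h2 : ((Module.finrank ℂ (LinearMap.range (cL (dl - e)))
      + (charDegree (χ₁ : G → ℂ) ^ 2 + charDegree (χ₂ : G → ℂ) ^ 2) : ℕ) : ℂ)
      = (Fintype.card G : ℂ) := by
    push_cast
    rw [h]
    push_cast
    ring
  exact_mod_cast h2

theorem conv_pair_sub {χ₁ χ₂ : IrrCharacter G} (h12 : χ₁ ≠ χ₂) {a : G → ℂ}
    (ha : IsClassFunction G a) :
    conv (blockCoeff ({χ₁, χ₂} : Set (IrrCharacter G))) a
      - omega (χ₁ : G → ℂ) a • blockCoeff ({χ₁, χ₂} : Set (IrrCharacter G))
      = (omega (χ₂ : G → ℂ) a - omega (χ₁ : G → ℂ) a) • blockCoeff ({χ₂} : Set (IrrCharacter G)) := by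
  rw [blockCoeff_pair h12, conv_add_left, conv_blockCoeff_singleton _ ha,
    conv_blockCoeff_singleton _ ha, smul_add, sub_smul]
  abel

end Cfsg.Agent.Lib.Helper82
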