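import Mathlib
import Cfsg.Agent.Lib.Helper82.BrCenter

set_option autoImplicit false
set_option linter.unusedSectionVars false
open Cfsg
open Cfsg.Agent.Lib.Helper81 Cfsg.Agent.Lib.Helper80 Cfsg.Agent.Lib.Helper21

namespace Cfsg.Agent.Lib.Helper82

variable {p : ℕ} {M : Ideal AlgInt}
variable {G : Type*} [Group G] [Fintype G]

/-- indicator function of a conjugacy class -/
noncomputable def cInd (C : ConjClasses G) : G → ℂ :=
  fun g => by classical exact if ConjClasses.mk g = C then 1 else 0

theorem cInd_apply [DecidableEq (ConjClasses G)] (C : ConjClasses G) (g : G) :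
    cInd C g = if ConjClasses.mk g = C then 1 else 0 := by
  unfold cInd; congr

theorem cInd_classFunction (C : ConjClasses G) : IsClassFunction G (cInd C) := fun g h => by
  classical
  rw [cInd_apply, cInd_apply]
  have : ConjClasses.mk (h * g * h⁻¹) = ConjClasses.mk g := by
    rw [ConjClasses.mk_eq_mk_iff_isConj]
    exact (isConj_iff.2 ⟨h, rfl⟩).symm
  rw [this]

theorem RV_cInd (hM : IsPModular p M) (C : ConjClasses G) : RV M (cInd C) := fun g => by
  classical
  rw [cInd_apply]
  split_ifs
  · exact memLocalRing_one hM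
  · exact memLocalRing_zero hM

theorem red_cInd_apply (hM : IsPModular p M) [DecidableEq (ConjClasses G)] (C : ConjClasses G)
    (g : G) : red hM (cInd C) g = if ConjClasses.mk g = C then 1 else 0 := by
  rw [red_apply, cInd_apply]
  split_ifs
  · exact resC_one hM
  · exact resC_zero hM

theorem linearIndependent_red_cInd (hM : IsPModular p M) :
    LinearIndependent (Kr hM) (fun C : ConjClasses G => (red hM (cInd C) : GA (Kr hM) G)) := by
  classical
  have : Fintype (ConjClasses G) := Fintype.ofFinite _
  rw [Fintype.linearIndependent_iff]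
  intro c hc C₀
  have h1 := congrArg (fun a : GA (Kr hM) G => a (Quotient.out C₀)) hc
  simp only [GA.sum_apply, GA.smul_apply, GA.zero_apply, red_cInd_apply] at h1
  rw [Finset.sum_eq_single C₀] at h1
  · have h2 : ConjClasses.mk (Quotient.out C₀) = C₀ := Quotient.out_eq C₀
    rw [if_pos h2, mul_one] at h1
    exact h1
  · intro C _ hC
    have h2 : ConjClasses.mk (Quotient.out C₀) = C₀ := Quotient.out_eq C₀
    rw [h2, if_neg (Ne.symm hC), mul_zero]
  · intro h; exact absurd (Finset.mem_univ _) h

/-- `omega χ` as a linear functional -/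
noncomputable def omegaL (χ : G → ℂ) : (G → ℂ) →ₗ[ℂ] ℂ where
  toFun z := omega χ z
  map_add' z w := omega_add χ z w
  map_smul' c z := omega_smul χ c z

theorem omegaL_apply (χ z : G → ℂ) : omegaL χ z = omega χ z := rfl

/-- the space of class functions -/
noncomputable def CFs (G : Type*) [Group G] : Submodule ℂ (G → ℂ) :=
  LinearMap.range (LinearMap.funLeft ℂ ℂ (ConjClasses.mk : G → ConjClasses G))

theorem mem_CFs {a : G → ℂ} (ha : IsClassFunction G a) : a ∈ CFs G := by
  refine ⟨fun C => a (Quotient.out C), ?_⟩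
  funext g
  rw [LinearMap.funLeft_apply]
  exact classFunction_isConj ha (isConj_out g)

theorem finrank_CFs_le : Module.finrank ℂ (CFs G) ≤ Nat.card (ConjClasses G) := by
  classical
  have : Fintype (ConjClasses G) := Fintype.ofFinite _
  refine (LinearMap.finrank_range_le _).trans ?_
  rw [Module.finrank_fintype_fun_eq_card, Nat.card_eq_fintype_card]

theorem exists_red_ne_zero (hM : IsPModular p M) {χ₁ χ₂ : IrrCharacter G} (h12 : χ₁ ≠ χ₂)
    (hB : IsPBlock M ({χ₁, χ₂} : Set (IrrCharacter G))) :
    ∃ δ : ℂ, MemLocalIdeal M δ ∧ RV M (δ • blockCoeff ({χ₂} : Set (IrrCharacter G))) ∧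
      red hM (δ • blockCoeff ({χ₂} : Set (IrrCharacter G))) ≠ 0 := by
  classical
  have : Fintype (ConjClasses G) := Fintype.ofFinite _
  by_contra hcon
  push Not at hcon
  set e := blockCoeff ({χ₁, χ₂} : Set (IrrCharacter G)) with he
  set e₂ := blockCoeff ({χ₂} : Set (IrrCharacter G)) with he₂
  have heR : RV M e := RV_blockCoeff hM hB
  have hec : IsClassFunction G e := blockCoeff_classFunction _
  have hsame : SameBlock M (χ₂ : G → ℂ) (χ₁ : G → ℂ) :=
    isPBlock_sameBlock hM hB (by simp) (by simp)
  let v : Option (ConjClasses G) → G → ℂ := fun o =>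
    match o with
    | none => e
    | some C => conv (dl - e) (cInd C)
  have hvR : ∀ o, RV M (v o) := by
    intro o
    cases o with
    | none => exact heR
    | some C => exact RV.conv hM (RV.sub hM (RV_dl hM) heR) (RV_cInd hM C)
  -- Step A
  have hA : ∀ C : ConjClasses G, (red hM (cInd C) : GA (Kr hM) G) ∈
      Submodule.span (Kr hM) (Set.range (fun o => (red hM (v o) : GA (Kr hM) G))) := by
    intro C
    set a := cInd C with ha
    have hac : IsClassFunction G a := cInd_classFunction C
    have haR : RV M a := RV_cInd hM C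
    have hω : MemLocalRing M (omega (χ₁ : G → ℂ) a) := omega_memLocalRing hM χ₁ hac haR
    have h1 := conv_pair_sub h12 hac
    rw [← he, ← he₂] at h1
    have hR1 : RV M (conv e a - omega (χ₁ : G → ℂ) a • e) :=
      RV.sub hM (RV.conv hM heR haR) (RV.smul hM hω heR)
    have h2 : red hM (conv e a - omega (χ₁ : G → ℂ) a • e) = 0 := by
      rw [h1]
      apply hcon _ (omega_sub_memLocalIdeal hM hsame hac haR)
      rw [← h1]; exact hR1
    rw [red_sub hM (RV.conv hM heR haR) (RV.smul hM hω heR), sub_eq_zero,
      red_smul hM hω heR] at h2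
    have h3 : a = conv e a + conv (dl - e) a := by
      rw [conv_sub_left, conv_dl_left]; abel
    have h4 : red hM a = resC hM (omega (χ₁ : G → ℂ) a) • red hM e + red hM (conv (dl - e) a) := by
      conv_lhs => rw [h3]
      rw [red_add hM (RV.conv hM heR haR) (RV.conv hM (RV.sub hM (RV_dl hM) heR) haR), h2]
    rw [h4]
    exact Submodule.add_mem _ (Submodule.smul_mem _ _ (Submodule.subset_span ⟨none, rfl⟩))
      (Submodule.subset_span ⟨some C, rfl⟩)
  -- Step B
  have hB1 : Nat.card (ConjClasses G) ≤ Module.finrank (Kr hM) (Submodule.span (Kr hM)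
      (Set.range (fun o => (red hM (v o) : GA (Kr hM) G)))) := by
    have h1 := finrank_span_eq_card (linearIndependent_red_cInd (G := G) hM)
    rw [Nat.card_eq_fintype_card, ← h1]
    apply Submodule.finrank_mono
    rw [Submodule.span_le]
    rintro _ ⟨C, rfl⟩
    exact hA C
  have hB2 := finrank_span_red_le hM v hvR
  -- Step C
  let lam : (G → ℂ) →ₗ[ℂ] ℂ := omegaL (χ₁ : G → ℂ) - omegaL (χ₂ : G → ℂ)
  have hC1 : Submodule.span ℂ (Set.range v) ≤ CFs G ⊓ LinearMap.ker lam := by
    rw [Submodule.span_le]
    rintro _ ⟨o, rfl⟩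
    cases o with
    | none =>
      refine ⟨mem_CFs hec, ?_⟩
      show lam e = 0
      show omega (χ₁ : G → ℂ) e - omega (χ₂ : G → ℂ) e = 0
      rw [he, omega_blockCoeff, omega_blockCoeff]
      simp
    | some C =>
      have hd : IsClassFunction G (dl - e) := classFunction_sub dl_classFunction hec
      refine ⟨mem_CFs (conv_classFunction hd (cInd_classFunction C)), ?_⟩
      show omega (χ₁ : G → ℂ) (conv (dl - e) (cInd C))
        - omega (χ₂ : G → ℂ) (conv (dl - e) (cInd C)) = 0
      rw [omega_conv χ₁.2 _ _ (cInd_classFunction C), omega_conv χ₂.2 _ _ (cInd_classFunction C),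
        omega_sub, omega_sub, omega_dl (irr_one_ne_zero χ₁.2), omega_dl (irr_one_ne_zero χ₂.2),
        he, omega_blockCoeff, omega_blockCoeff]
      simp
  have hC2 : CFs G ⊓ LinearMap.ker lam < CFs G := by
    refine lt_of_le_of_ne inf_le_left ?_
    intro h
    have h1 : blockCoeff ({χ₁} : Set (IrrCharacter G)) ∈ CFs G :=
      mem_CFs (blockCoeff_classFunction _)
    rw [← h] at h1
    have h2 : lam (blockCoeff ({χ₁} : Set (IrrCharacter G))) = 0 := h1.2
    have h3 : omega (χ₁ : G → ℂ) (blockCoeff ({χ₁} : Set (IrrCharacter G)))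
        - omega (χ₂ : G → ℂ) (blockCoeff ({χ₁} : Set (IrrCharacter G))) = 0 := h2
    rw [omega_blockCoeff, omega_blockCoeff] at h3
    simp [Ne.symm h12] at h3
  have hC3 := Submodule.finrank_lt_finrank_of_lt hC2
  have hC4 := Submodule.finrank_mono hC1
  have hC5 := finrank_CFs_le (G := G)
  omega

end Cfsg.Agent.Lib.Helper82
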