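import Mathlib
import Cfsg.Agent.Lib.Helper82.BrCenter2

set_option autoImplicit false
set_option linter.unusedSectionVars false
open Cfsg
open Cfsg.Agent.Lib.Helper81 Cfsg.Agent.Lib.Helper80 Cfsg.Agent.Lib.Helper21

namespace Cfsg.Agent.Lib.Helper82

variable {p : ℕ} {M : Ideal AlgInt}
variable {G : Type*} [Group G] [Fintype G]

theorem red_smul_eq_smul_red (hM : IsPModular p M) {u : G → ℂ} {δ₀ δ : ℂ} (h0R : RV M (δ₀ • u))
    (hR : RV M (δ • u)) (hne : red hM (δ₀ • u) ≠ 0) :
    ∃ β : Kr hM, red hM (δ • u) = β • red hM (δ₀ • u) := by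
  by_contra hcon
  push Not at hcon
  have h1 : LinearIndependent (Kr hM) ![red hM (δ₀ • u), red hM (δ • u)] := by
    rw [LinearIndependent.pair_iff' hne]
    intro a ha
    exact hcon a ha.symm
  have h2 : LinearIndependent (Kr hM)
      (fun i => (red hM ((![δ₀ • u, δ • u] : Fin 2 → G → ℂ) i) : GA (Kr hM) G)) := by
    have : (fun i => (red hM ((![δ₀ • u, δ • u] : Fin 2 → G → ℂ) i) : GA (Kr hM) G))
        = ![red hM (δ₀ • u), red hM (δ • u)] := by
      funext i
      fin_cases i <;> rfl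
    rw [this]; exact h1
  have h3 := linearIndependent_of_red hM (![δ₀ • u, δ • u] : Fin 2 → G → ℂ)
    (by intro i; fin_cases i; exacts [h0R, hR]) h2
  have hu0 : δ₀ • u ≠ 0 := by
    intro h
    apply hne
    rw [h, red_zero]
  have hδ₀ : δ₀ ≠ 0 := by
    intro h
    apply hu0
    rw [h, zero_smul]
  rw [LinearIndependent.pair_iff' hu0] at h3
  apply h3 (δ / δ₀)
  rw [smul_smul, div_mul_cancel₀ _ hδ₀]

theorem brandt_data (hM : IsPModular p M) {χ₁ χ₂ : IrrCharacter G} (h12 : χ₁ ≠ χ₂)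
    (hB : IsPBlock M ({χ₁, χ₂} : Set (IrrCharacter G))) :
    ∃ z : GA (Kr hM) G, (∀ x, z * x = x * z) ∧ blkR hM {χ₁, χ₂} * z = z ∧ z ≠ 0 ∧
      IsNilpotent z ∧
      (∀ c : GA (Kr hM) G, (∀ x, c * x = x * c) → ∃ α β : Kr hM,
        blkR hM {χ₁, χ₂} * c = α • blkR hM {χ₁, χ₂} + β • z) ∧
      Module.finrank (Kr hM) (LinearMap.range (LinearMap.mulLeft (Kr hM) z))
        ≤ charDegree (χ₁ : G → ℂ) ^ 2 ∧
      Module.finrank (Kr hM) (LinearMap.range (LinearMap.mulLeft (Kr hM) z))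
        ≤ charDegree (χ₂ : G → ℂ) ^ 2 := by
  classical
  obtain ⟨δ₀, hδ₀, hR₀, hne⟩ := exists_red_ne_zero hM h12 hB
  set e := blockCoeff ({χ₁, χ₂} : Set (IrrCharacter G)) with he
  set e₁ := blockCoeff ({χ₁} : Set (IrrCharacter G)) with he₁
  set e₂ := blockCoeff ({χ₂} : Set (IrrCharacter G)) with he₂
  have heR : RV M e := RV_blockCoeff hM hB
  have hec : IsClassFunction G e := blockCoeff_classFunction _
  have he₂c : IsClassFunction G e₂ := blockCoeff_classFunction _
  have hsame : SameBlock M (χ₂ : G → ℂ) (χ₁ : G → ℂ) :=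
    isPBlock_sameBlock hM hB (by simp) (by simp)
  have hb : blkR hM ({χ₁, χ₂} : Set (IrrCharacter G)) = red hM e := rfl
  have hsupp : ∀ x : GA (Kr hM) G, GA.SuppOn ⊤ x := fun x g hg => absurd (Subgroup.mem_top g) hg
  have hee₂ : conv e e₂ = e₂ := by
    have h1 := conv_pair_sub h12 he₂c
    rw [← he, ← he₂, he₂, omega_blockCoeff, omega_blockCoeff] at h1
    simp only [Set.mem_singleton_iff, h12, if_false, if_true, zero_smul, sub_zero, one_smul] at h1
    exact h1
  have hδ₀R : MemLocalRing M δ₀ := memLocalRing_of_memLocalIdeal hδ₀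
  refine ⟨red hM (δ₀ • e₂), ?_, ?_, hne, ?_, ?_, ?_, ?_⟩
  · intro x
    exact (GA.commute_of_suppOn_fixBy (hsupp x)
      (inZ_red hM (classFunction_smul δ₀ he₂c)).2).symm
  · rw [hb, ← red_conv hM heR hR₀, conv_smul_right, hee₂]
  · apply isNilpotent_red hM (classFunction_smul δ₀ he₂c) hR₀
    intro χ
    rw [omega_smul, he₂, omega_blockCoeff]
    split_ifs
    · rw [mul_one]; exact hδ₀
    · rw [mul_zero]; exact memLocalIdeal_zero hM
  · intro c hc
    have hcZ : GA.InZ ⊤ c := by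
      refine ⟨hsupp c, fun x _ => ?_⟩
      rw [GA.cj_eq_iff_commute]
      exact (hc _).symm
    obtain ⟨a, hac, haR, rfl⟩ := exists_lift hM hcZ
    have hω : MemLocalRing M (omega (χ₁ : G → ℂ) a) := omega_memLocalRing hM χ₁ hac haR
    have h1 := conv_pair_sub h12 hac
    rw [← he, ← he₂] at h1
    have hR1 : RV M (conv e a - omega (χ₁ : G → ℂ) a • e) :=
      RV.sub hM (RV.conv hM heR haR) (RV.smul hM hω heR)
    have hR2 : RV M ((omega (χ₂ : G → ℂ) a - omega (χ₁ : G → ℂ) a) • e₂) := by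
      rw [← h1]; exact hR1
    obtain ⟨β, hβ⟩ := red_smul_eq_smul_red hM hR₀ hR2 hne
    refine ⟨resC hM (omega (χ₁ : G → ℂ) a), β, ?_⟩
    rw [hb, ← red_conv hM heR haR, ← hβ, ← h1,
      red_sub hM (RV.conv hM heR haR) (RV.smul hM hω heR), red_smul hM hω heR]
    abel
  · -- bound by χ₁
    have h1 : (-δ₀) • e₁ = δ₀ • e₂ - δ₀ • e := by
      rw [he, blockCoeff_pair h12, smul_add, neg_smul]
      abel
    have hR1 : RV M ((-δ₀) • e₁) := by
      rw [h1]; exact RV.sub hM hR₀ (RV.smul hM hδ₀R heR)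
    have h2 : red hM (δ₀ • e₂) = red hM ((-δ₀) • e₁) := by
      rw [h1, red_sub hM hR₀ (RV.smul hM hδ₀R heR), red_smul hM hδ₀R heR,
        (resC_eq_zero_iff hM hδ₀R).2 hδ₀, zero_smul, sub_zero]
    rw [h2, ← finrank_range_cL_singleton χ₁]
    apply finrank_range_mulLeft_red_le hM hR1
    rw [conv_smul_right, Helper80.conv_blockCoeff_self]
  · rw [← finrank_range_cL_singleton χ₂]
    apply finrank_range_mulLeft_red_le hM hR₀
    rw [conv_smul_right, Helper80.conv_blockCoeff_self]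

/-- lower bound for the dimension of the block algebra -/
theorem brandt_dim (hM : IsPModular p M) {χ₁ χ₂ : IrrCharacter G} (h12 : χ₁ ≠ χ₂)
    (hB : IsPBlock M ({χ₁, χ₂} : Set (IrrCharacter G))) :
    charDegree (χ₁ : G → ℂ) ^ 2 + charDegree (χ₂ : G → ℂ) ^ 2 ≤
      Module.finrank (Kr hM) (LinearMap.range (LinearMap.mulLeft (Kr hM)
        (blkR hM ({χ₁, χ₂} : Set (IrrCharacter G))))) := by
  classical
  set e := blockCoeff ({χ₁, χ₂} : Set (IrrCharacter G)) with he
  set b := blkR hM ({χ₁, χ₂} : Set (IrrCharacter G)) with hb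
  have heR : RV M e := RV_blockCoeff hM hB
  have hbb : b * b = b := blkR_idem hM hB
  have h1 := LinearMap.finrank_range_add_finrank_ker (LinearMap.mulLeft (Kr hM) b)
  have h2 : Module.finrank (Kr hM) (GA (Kr hM) G) = Fintype.card G :=
    Module.finrank_fintype_fun_eq_card (Kr hM)
  have h3 : LinearMap.ker (LinearMap.mulLeft (Kr hM) b) ≤
      LinearMap.range (LinearMap.mulLeft (Kr hM) (red hM (dl - e))) := by
    intro x hx
    rw [LinearMap.mem_ker, LinearMap.mulLeft_apply] at hx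
    refine ⟨x, ?_⟩
    rw [LinearMap.mulLeft_apply, red_sub hM (RV_dl hM) heR, red_dl, sub_mul, one_mul]
    have : red hM e * x = 0 := hx
    rw [this, sub_zero]
  have hee : conv e e = e := Helper80.conv_blockCoeff_self _
  have hid : conv (dl - e) (dl - e) = dl - e := by
    rw [conv_sub_left, conv_sub_right, conv_sub_right, conv_dl_left, conv_dl_left, conv_dl_right,
      hee]
    simp
  have h4 := finrank_range_mulLeft_red_le hM (RV.sub hM (RV_dl hM) heR) hid
  have h5 := finrank_range_cL_compl h12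
  have h6 := Submodule.finrank_mono h3
  rw [← he] at h5
  omega

end Cfsg.Agent.Lib.Helper82
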