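import Mathlib
import Cfsg.Agent.Lib.Helper29.BrandtAbs

set_option autoImplicit false
set_option linter.unusedSectionVars false

namespace Cfsg.Agent.Lib.Helper82

open Module

/-- Relative form of the abstract Brandt theorem: the block `bR` of a symmetric algebra `R`. -/
theorem brandt_relative {F R : Type*} [Field F] [IsAlgClosed F] [Ring R] [Algebra F R]
    [FiniteDimensional F R]
    (t : R →ₗ[F] F) (ht : ∀ x y, t (x * y) = t (y * x)) (hnd : ∀ x, (∀ y, t (x * y) = 0) → x = 0)
    (b z : R) (hbb : b * b = b) (hbc : ∀ x, b * x = x * b) (hzc : ∀ x, z * x = x * z)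
    (hbz : b * z = z) (hz0 : z ≠ 0) (hzn : IsNilpotent z)
    (hspan : ∀ c : R, (∀ x, c * x = x * c) → ∃ α β : F, b * c = α • b + β • z) :
    finrank F (LinearMap.range (LinearMap.mulLeft F b)) ≤
      2 * finrank F (LinearMap.range (LinearMap.mulLeft F z)) := by
  let I : Ideal R :=
    { carrier := {x | b * x = 0}
      add_mem' := fun {x y} hx hy => by
        show b * (x + y) = 0
        rw [mul_add, show b * x = 0 from hx, show b * y = 0 from hy, add_zero]
      zero_mem' := mul_zero b
      smul_mem' := fun c x hx => by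
        show b * (c * x) = 0
        rw [← mul_assoc, hbc c, mul_assoc, show b * x = 0 from hx, mul_zero] }
  have hI : ∀ x, x ∈ I ↔ b * x = 0 := fun x => Iff.rfl
  have : I.IsTwoSided := ⟨fun {x} r hx => by
    show b * (x * r) = 0
    rw [← mul_assoc, show b * x = 0 from hx, zero_mul]⟩
  let mk : R →ₐ[F] (R ⧸ I) := Ideal.Quotient.mkₐ F I
  have hmk : Function.Surjective mk := Ideal.Quotient.mkₐ_surjective F I
  have hmk0 : ∀ x, mk x = 0 ↔ b * x = 0 := fun x => by
    show Ideal.Quotient.mk I x = 0 ↔ _
    rw [Ideal.Quotient.eq_zero_iff_mem, hI]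
  have hmkeq : ∀ x y, mk x = mk y → b * x = b * y := fun x y h => by
    have : mk (x - y) = 0 := by rw [map_sub, h, sub_self]
    rw [hmk0, mul_sub, sub_eq_zero] at this
    exact this
  have hmkb : mk b = 1 := by
    have : mk (b - 1) = 0 := by
      rw [hmk0, mul_sub, hbb, mul_one, sub_self]
    rw [map_sub, map_one, sub_eq_zero] at this
    exact this
  let σ : (R ⧸ I) → R := Function.surjInv hmk
  have hσ : ∀ a, mk (σ a) = a := Function.surjInv_eq hmk
  have hσb : ∀ x, b * σ (mk x) = b * x := fun x => hmkeq _ _ (hσ _)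
  let tb : (R ⧸ I) →ₗ[F] F :=
    { toFun := fun a => t (b * σ a)
      map_add' := fun a a' => by
        obtain ⟨x, rfl⟩ := hmk a
        obtain ⟨y, rfl⟩ := hmk a'
        rw [← map_add, hσb, hσb, hσb, mul_add, map_add]
      map_smul' := fun c a => by
        obtain ⟨x, rfl⟩ := hmk a
        rw [← map_smul, hσb, hσb, mul_smul_comm, map_smul, RingHom.id_apply] }
  have htb : ∀ x, tb (mk x) = t (b * x) := fun x => by
    show t (b * σ (mk x)) = _
    rw [hσb]
  have h1 := Cfsg.Agent.Lib.Helper29.Brandt.brandt_abstract (F := F) (A := R ⧸ I) tb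
    (by
      intro a a'
      obtain ⟨x, rfl⟩ := hmk a
      obtain ⟨y, rfl⟩ := hmk a'
      rw [← map_mul, ← map_mul, htb, htb, ← mul_assoc, ht, ← mul_assoc, ← hbc y, mul_assoc])
    (by
      intro a ha
      obtain ⟨x, rfl⟩ := hmk a
      rw [hmk0]
      apply hnd
      intro y
      have := ha (mk y)
      rw [← map_mul, htb, ← mul_assoc] at this
      exact this)
    (mk z)
    (by
      intro a
      obtain ⟨x, rfl⟩ := hmk a
      rw [← map_mul, ← map_mul, hzc])
    (by
      intro h
      rw [hmk0, hbz] at h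
      exact hz0 h)
    (hzn.map mk)
    (by
      intro a ha
      obtain ⟨c, rfl⟩ := hmk a
      have hc : ∀ x, (b * c) * x = x * (b * c) := by
        intro x
        have h2 := ha (mk x)
        rw [← map_mul, ← map_mul] at h2
        have h3 := hmkeq _ _ h2
        rw [mul_assoc, h3, ← mul_assoc, hbc x, mul_assoc]
      obtain ⟨α, β, hαβ⟩ := hspan (b * c) hc
      rw [← mul_assoc, hbb] at hαβ
      refine ⟨α, β, ?_⟩
      have h4 : mk c = mk (b * c) := by rw [map_mul, hmkb, one_mul]
      rw [h4, hαβ, map_add, map_smul, map_smul, hmkb])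
  -- dimension comparison
  have h2 : finrank F (LinearMap.range (LinearMap.mulLeft F b)) ≤ finrank F (R ⧸ I) := by
    apply LinearMap.finrank_le_finrank_of_injective
      (f := mk.toLinearMap.comp (LinearMap.range (LinearMap.mulLeft F b)).subtype)
    intro x y hxy
    obtain ⟨x, ⟨x', rfl⟩⟩ := x
    obtain ⟨y, ⟨y', rfl⟩⟩ := y
    apply Subtype.ext
    have h3 : mk (b * x') = mk (b * y') := hxy
    have h4 := hmkeq _ _ h3
    rw [← mul_assoc, ← mul_assoc, hbb] at h4
    exact h4
  have h3 : LinearMap.range (LinearMap.mulLeft F (mk z)) ≤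
      (LinearMap.range (LinearMap.mulLeft F z)).map mk.toLinearMap := by
    rintro _ ⟨a, rfl⟩
    obtain ⟨x, rfl⟩ := hmk a
    exact ⟨z * x, ⟨x, rfl⟩, by simp⟩
  have h4 := Submodule.finrank_mono h3
  have h5 := Submodule.finrank_map_le mk.toLinearMap (LinearMap.range (LinearMap.mulLeft F z))
  omega

end Cfsg.Agent.Lib.Helper82
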