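import Mathlib
import Cfsg.Agent.Lib.Helper80.MTAlgClosed
import Cfsg.Agent.Lib.Helper82.BrData
import Cfsg.Agent.Lib.Helper82.BrRel

set_option autoImplicit false
set_option linter.unusedSectionVars false
open Cfsg
open Cfsg.Agent.Lib.Helper81 Cfsg.Agent.Lib.Helper80 Cfsg.Agent.Lib.Helper21

namespace Cfsg.Agent.Lib.Helper82

variable {p : ℕ} {M : Ideal AlgInt}
variable {G : Type*} [Group G] [Fintype G]

/-- the symmetrising form of the group algebra -/
noncomputable def gaTr (k : Type*) [Field k] (G : Type*) [Group G] : GA k G →ₗ[k] k where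
  toFun x := x 1
  map_add' _ _ := rfl
  map_smul' _ _ := rfl

theorem gaTr_apply {k : Type*} [Field k] (x : GA k G) : gaTr k G x = x 1 := rfl

theorem gaTr_comm {k : Type*} [Field k] (x y : GA k G) : gaTr k G (x * y) = gaTr k G (y * x) := by
  rw [gaTr_apply, gaTr_apply, GA.mul_apply, GA.mul_apply]
  refine Fintype.sum_equiv (Equiv.inv G) _ _ (fun g => ?_)
  simp [mul_comm]

theorem gaTr_nondeg {k : Type*} [Field k] (x : GA k G) (h : ∀ y, gaTr k G (x * y) = 0) :
    x = 0 := by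
  ext g
  have := h (GA.of g⁻¹)
  rw [gaTr_apply, GA.mul_of_apply] at this
  simpa using this

/-- **Brandt**: the two characters of a block with exactly two characters have equal degree. -/
theorem brandt_degrees (hM : IsPModular p M) {χ₁ χ₂ : IrrCharacter G} (h12 : χ₁ ≠ χ₂)
    (hB : IsPBlock M ({χ₁, χ₂} : Set (IrrCharacter G))) :
    charDegree (χ₁ : G → ℂ) = charDegree (χ₂ : G → ℂ) := by
  obtain ⟨z, hzc, hbz, hz0, hzn, hspan, hz1, hz2⟩ := brandt_data hM h12 hB
  have hdim := brandt_dim hM h12 hB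
  have hbc : ∀ x, blkR hM ({χ₁, χ₂} : Set (IrrCharacter G)) * x
      = x * blkR hM ({χ₁, χ₂} : Set (IrrCharacter G)) := by
    intro x
    exact (GA.commute_of_suppOn_fixBy (H := ⊤)
      (fun g hg => absurd (Subgroup.mem_top g) hg) (blkR_inZ hM _).2).symm
  have h := brandt_relative (gaTr (Kr hM) G) gaTr_comm gaTr_nondeg
    (blkR hM ({χ₁, χ₂} : Set (IrrCharacter G))) z (blkR_idem hM hB) hbc hzc hbz hz0 hzn hspan
  have h1 : charDegree (χ₁ : G → ℂ) ^ 2 ≤ charDegree (χ₂ : G → ℂ) ^ 2 := by omega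
  have h2 : charDegree (χ₂ : G → ℂ) ^ 2 ≤ charDegree (χ₁ : G → ℂ) ^ 2 := by omega
  have h3 := (Nat.pow_le_pow_iff_left (by norm_num : (2 : ℕ) ≠ 0)).1 h1
  have h4 := (Nat.pow_le_pow_iff_left (by norm_num : (2 : ℕ) ≠ 0)).1 h2
  omega

end Cfsg.Agent.Lib.Helper82
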