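import Mathlib
import Cfsg.Agent.Lib.Helper84.RO.Defs
import Cfsg.Agent.Lib.Helper82.ROTW
import Cfsg.Agent.Lib.Helper82.Linear
import Cfsg.Agent.Lib.Helper83.Basic
import Cfsg.Agent.Lib.Helper19.DetChar
import Cfsg.Agent.Lib.Helper77.GlaubCore
import Cfsg.Agent.Lib.Helper79.DegreeRatio

/-!
# RO ladder, rung EX: the determinant of a real character of odd degree extends `θ`
-/

set_option autoImplicit false

namespace Cfsg.Agent.Lib.Helper82.RO

open Cfsg Cfsg.Agent.Lib.Helper5 Cfsg.Agent.Lib.Helper84.RO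
open scoped ComplexConjugate

/-- [EX] -/
theorem exists_rl_of_ro {Y L₀ : Type*} [Group Y] [Finite Y] [Group L₀] [Finite L₀] (j : L₀ →* Y)
    (θ : L₀ → ℂ)
    (hθ : IsRL θ) (ξ : Y → ℂ) (hξ : IsCharacter Y ξ) (hro : IsRO ξ)
    (hres : ∀ l : L₀, ξ (j l) = ξ 1 * θ l) : ∃ μ : Y → ℂ, IsRL μ ∧ ∀ l : L₀, μ (j l) = θ l := by
  classical
  have hreal : ∀ g, conj (detChar ξ g) = detChar ξ g := by
    intro g
    have h1 := Cfsg.Agent.Lib.Helper77.detChar_ringHom_comp (starRingEnd ℂ) hξ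
    have h2 : (fun g => (starRingEnd ℂ) (ξ g)) = ξ := by
      funext x
      exact Complex.conj_eq_iff_im.2 (hro.1 x)
    rw [h2] at h1
    exact (congrFun h1 g).symm
  have hdeg := isChar_one_eq hξ
  have hodd := hro.2
  obtain ⟨n, ρ, rfl⟩ := hξ
  have hn : ρ.character 1 = (n : ℂ) := by simp [Representation.char_one]
  have hnd : charDegree ρ.character = n := by
    rw [hn] at hdeg
    exact_mod_cast hdeg.symm
  rw [Cfsg.Agent.Lib.Helper19.detChar_eq ρ] at hreal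
  refine ⟨fun g => ((Cfsg.Agent.Lib.Helper19.detHom ρ g : ℂˣ) : ℂ),
    ⟨isIrr_isChar (Cfsg.Agent.Lib.Helper83.isIrr_of_hom _), by simp, ?_⟩, ?_⟩
  · intro g
    exact Complex.conj_eq_iff_im.1 (hreal g)
  · intro l
    show LinearMap.det (ρ (j l)) = θ l
    let lam : (⊤ : Subgroup L₀) →* ℂˣ :=
      ((linHom θ hθ.1 hθ.2.1).toHomUnits).comp (⊤ : Subgroup L₀).subtype
    have hsc := Cfsg.Agent.Lib.Helper79.scalar_of_character_eq (repComp ρ j) ⊤ lam (by
      intro x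
      show ρ.character (j x) = (n : ℂ) * θ x
      rw [hres, hn]) ⟨l, Subgroup.mem_top l⟩
    have hsc' : ρ (j l) = θ l • LinearMap.id := hsc
    rw [hsc', LinearMap.det_smul, LinearMap.det_id, mul_one, Module.finrank_fin_fun]
    rw [hnd] at hodd
    obtain ⟨m, hm⟩ := hodd
    rw [hm, pow_succ, pow_mul, pow_two, rl_mul_self hθ, one_pow, one_mul]

end Cfsg.Agent.Lib.Helper82.RO
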