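import Cfsg.Agent.Lib.Helper82.TILattice

set_option autoImplicit false
open scoped Pointwise

namespace Cfsg.Agent.Lib.Helper82

/-- For a T.I. Sylow subgroup `P` and `N_G(P) ≤ H`, `P ∩ t H t⁻¹ = 1` for `t ∉ H`. -/
theorem ti_inter_conj {G : Type*} [Group G] [Finite G] (p : ℕ) [Fact p.Prime] (P : Sylow p G)
    (hTI : ∀ g : G, g ∉ Subgroup.normalizer ((P : Subgroup G) : Set G) →
      (P : Subgroup G) ⊓ (MulAut.conj g • (P : Subgroup G)) = ⊥)
    (H : Subgroup G) (hH : Subgroup.normalizer ((P : Subgroup G) : Set G) ≤ H) (t : G)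
    (ht : t ∉ H) (y : G) (hy : y ∈ (P : Subgroup G)) (hyt : t⁻¹ * y * t ∈ H) : y = 1 := by
  have hp : p.Prime := Fact.out
  have hPH : (P : Subgroup G) ≤ H := Subgroup.le_normalizer.trans hH
  obtain ⟨k, hk⟩ := P.2 ⟨y, hy⟩
  have hyk : y ^ p ^ k = 1 := congrArg Subtype.val hk
  let z : H := ⟨t⁻¹ * y * t, hyt⟩
  have hzk : z ^ p ^ k = 1 := by
    apply Subtype.ext
    show (t⁻¹ * y * t) ^ p ^ k = 1
    have : t⁻¹ * y * t = t⁻¹ * y * t⁻¹⁻¹ := by rw [inv_inv]
    rw [this, conj_pow, hyk]; group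
  have hzP : IsPGroup p (Subgroup.zpowers z) := by
    obtain ⟨j, -, hj⟩ := (Nat.dvd_prime_pow hp).1 (orderOf_dvd_of_pow_eq_one hzk)
    apply IsPGroup.of_card (n := j)
    rw [Nat.card_zpowers, hj]
  obtain ⟨Q, hQ⟩ := hzP.exists_le_sylow
  obtain ⟨h, hh⟩ := MulAction.exists_smul_eq H (P.subtype hPH) Q
  have hzQ : z ∈ (Q : Subgroup H) := hQ (Subgroup.mem_zpowers z)
  rw [← hh, Sylow.coe_subgroup_smul, Subgroup.mem_pointwise_smul_iff_inv_smul_mem] at hzQ
  have h1 : ((h⁻¹ * z * h : H) : G) ∈ (P : Subgroup G) := by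
    have : (MulAut.conj h)⁻¹ • z = h⁻¹ * z * h := by
      rw [← map_inv]; simp [MulAut.smul_def]
    rw [this] at hzQ
    exact hzQ
  have h2 : (t * h)⁻¹ * y * (t * h) ∈ (P : Subgroup G) := by
    have : (t * (h : G))⁻¹ * y * (t * h) = ((h⁻¹ * z * h : H) : G) := by
      show _ = (h : G)⁻¹ * (t⁻¹ * y * t) * h
      group
    rw [this]; exact h1
  by_cases hth : t * (h : G) ∈ Subgroup.normalizer ((P : Subgroup G) : Set G)
  · exfalso
    apply ht
    have := H.mul_mem (hH hth) (H.inv_mem h.2)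
    simpa using this
  · have h3 := hTI _ hth
    have h4 : y ∈ (P : Subgroup G) ⊓ (MulAut.conj (t * (h : G)) • (P : Subgroup G)) := by
      rw [Subgroup.mem_inf]
      refine ⟨hy, ?_⟩
      rw [Subgroup.mem_pointwise_smul_iff_inv_smul_mem]
      have : (MulAut.conj (t * (h : G)))⁻¹ • y = (t * h)⁻¹ * y * (t * h) := by
        rw [← map_inv, MulAut.smul_def, MulAut.conj_apply, inv_inv]
      rw [this]; exact h2
    rw [h3, Subgroup.mem_bot] at h4
    exact h4

/-- representatives for the free `P × H`-action on an invariant subset of `G ∖ H` -/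
theorem exists_double_coset_reps {G W : Type*} [Group G] [DecidableEq G] [AddCommMonoid W]
    (P H : Subgroup G) [Fintype P] [Fintype H]
    (hfree : ∀ t : G, t ∉ H → ∀ y ∈ P, t⁻¹ * y * t ∈ H → y = 1) (n : ℕ) :
    ∀ S : Finset G, S.card = n → (∀ g ∈ S, g ∉ H) →
      (∀ g ∈ S, ∀ x ∈ P, ∀ h ∈ H, x * g * h ∈ S) →
    ∃ T : Finset G, T ⊆ S ∧ ∀ F : G → W,
      ∑ g ∈ S, F g = ∑ t ∈ T, ∑ x : P, ∑ h : H, F ((x : G) * t * h) := by
  induction n using Nat.strong_induction_on with
  | _ n ih =>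
    intro S hn hS1 hS2
    rcases S.eq_empty_or_nonempty with rfl | ⟨t, ht⟩
    · exact ⟨∅, Finset.Subset.refl _, fun F => by simp⟩
    · let f : P × H → G := fun xh => (xh.1 : G) * t * xh.2
      have hf : Function.Injective f := by
        rintro ⟨x, h⟩ ⟨x', h'⟩ hxx
        have hxx' : (x : G) * t * h = x' * t * h' := hxx
        have e1 : t⁻¹ * ((x' : G)⁻¹ * x) * t = h' * (h : G)⁻¹ := by
          calc t⁻¹ * ((x' : G)⁻¹ * x) * t = t⁻¹ * (x' : G)⁻¹ * ((x : G) * t * h) * (h : G)⁻¹ := by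
                group
            _ = h' * (h : G)⁻¹ := by rw [hxx']; group
        have e2 : (x' : G)⁻¹ * x = 1 := by
          apply hfree t (hS1 t ht) _ (P.mul_mem (P.inv_mem x'.2) x.2)
          rw [e1]
          exact H.mul_mem h'.2 (H.inv_mem h.2)
        have e3 : (x : G) = x' := (inv_mul_eq_one.1 e2).symm
        have e4 : (h : G) = h' := by
          rw [e3] at hxx'
          exact mul_left_cancel hxx'
        exact Prod.ext (Subtype.ext e3) (Subtype.ext e4)
      let D : Finset G := Finset.univ.image f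
      have hDS : D ⊆ S := by
        intro g hg
        obtain ⟨⟨x, h⟩, -, rfl⟩ := Finset.mem_image.1 hg
        exact hS2 t ht x x.2 h h.2
      have htD : t ∈ D := Finset.mem_image.2 ⟨(1, 1), Finset.mem_univ _, by simp [f]⟩
      have hcard : (S \ D).card < n := by
        rw [← hn]
        apply Finset.card_lt_card
        refine ⟨Finset.sdiff_subset, fun h => ?_⟩
        exact (Finset.mem_sdiff.1 (h ht)).2 htD
      obtain ⟨T', hT', hsum⟩ := ih _ hcard (S \ D) rfl
        (fun g hg => hS1 g (Finset.mem_sdiff.1 hg).1)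
        (by
          intro g hg x hx h hh
          rw [Finset.mem_sdiff] at hg ⊢
          refine ⟨hS2 g hg.1 x hx h hh, fun hD => hg.2 ?_⟩
          obtain ⟨⟨x', h'⟩, -, he⟩ := Finset.mem_image.1 hD
          have he' : (x' : G) * t * h' = x * g * h := he
          refine Finset.mem_image.2 ⟨(⟨x, hx⟩⁻¹ * x', h' * ⟨h, hh⟩⁻¹), Finset.mem_univ _, ?_⟩
          show x⁻¹ * (x' : G) * t * ((h' : G) * h⁻¹) = g
          calc x⁻¹ * (x' : G) * t * ((h' : G) * h⁻¹) = x⁻¹ * ((x' : G) * t * h') * h⁻¹ := by group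
            _ = g := by rw [he']; group)
      have htT' : t ∉ T' := fun h => (Finset.mem_sdiff.1 (hT' h)).2 htD
      refine ⟨insert t T', ?_, ?_⟩
      · intro g hg
        rcases Finset.mem_insert.1 hg with rfl | hg
        · exact ht
        · exact (Finset.mem_sdiff.1 (hT' hg)).1
      · intro F
        rw [Finset.sum_insert htT', ← hsum F, ← Finset.sum_sdiff hDS, add_comm]
        congr 1
        rw [Finset.sum_image (fun a _ b _ hab => hf hab), Fintype.sum_prod_type]

/-- For a T.I. Sylow subgroup `P`, `N_G(P) ≤ H`, an `H`-fixed vector `v` with vanishing `G`-trace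
is minus the `P`-trace of a sum of translates of `v`. -/
theorem exists_trace_eq {G W : Type*} [Group G] [Fintype G] [AddCommGroup W] [Module ℂ W]
    (ρ : Representation ℂ G W) (p : ℕ) [Fact p.Prime] (P : Sylow p G)
    (hTI : ∀ g : G, g ∉ Subgroup.normalizer ((P : Subgroup G) : Set G) →
      (P : Subgroup G) ⊓ (MulAut.conj g • (P : Subgroup G)) = ⊥)
    (H : Subgroup G) (hH : Subgroup.normalizer ((P : Subgroup G) : Set G) ≤ H)
    [Fintype (P : Subgroup G)] (v : W) (hvH : ∀ h ∈ H, ρ h v = v) (hsum : ∑ g : G, ρ g v = 0) :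
    ∃ T : Finset G, ∑ x : (P : Subgroup G), ρ (x : G) (∑ t ∈ T, ρ t v) = - v := by
  classical
  have := Fintype.ofFinite H
  obtain ⟨T, -, hT⟩ := exists_double_coset_reps (W := W) (P : Subgroup G) H
    (fun t ht y hy hyt => ti_inter_conj p P hTI H hH t ht y hy hyt) _
    (Finset.univ.filter (fun g : G => g ∉ H)) rfl
    (fun g hg => (Finset.mem_filter.1 hg).2)
    (by
      intro g hg x hx h hh
      rw [Finset.mem_filter] at hg ⊢
      refine ⟨Finset.mem_univ _, fun hc => hg.2 ?_⟩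
      have hxH : x ∈ H := hH (Subgroup.le_normalizer hx)
      have := H.mul_mem (H.mul_mem (H.inv_mem hxH) hc) (H.inv_mem hh)
      have e : x⁻¹ * (x * g * h) * h⁻¹ = g := by group
      rwa [e] at this)
  refine ⟨T, ?_⟩
  have h1 := hT (fun g => ρ g v)
  have h2 : ∑ t ∈ T, ∑ x : (P : Subgroup G), ∑ h : H, ρ ((x : G) * t * h) v =
      (Fintype.card H : ℂ) • ∑ x : (P : Subgroup G), ρ (x : G) (∑ t ∈ T, ρ t v) := by
    rw [Finset.sum_comm, Finset.smul_sum]
    apply Finset.sum_congr rfl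
    intro x _
    rw [map_sum, Finset.smul_sum]
    apply Finset.sum_congr rfl
    intro t _
    have : ∀ h : H, ρ ((x : G) * t * h) v = ρ (x : G) (ρ t v) := by
      intro h
      rw [map_mul, map_mul, Module.End.mul_apply, Module.End.mul_apply, hvH h h.2]
    simp only [this]
    rw [Finset.sum_const, Finset.card_univ, Nat.cast_smul_eq_nsmul]
  have h3 : ∑ g ∈ Finset.univ.filter (fun g : G => g ∈ H), ρ g v = (Fintype.card H : ℂ) • v := by
    rw [Finset.sum_congr rfl (fun g hg => hvH g (Finset.mem_filter.1 hg).2), Finset.sum_const,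
      Nat.cast_smul_eq_nsmul]
    congr 1
    rw [Fintype.card_subtype]
  have h4 := Finset.sum_filter_add_sum_filter_not Finset.univ (fun g : G => g ∈ H)
    (fun g => ρ g v)
  rw [h3, h1, h2, hsum, ← smul_add] at h4
  have h5 : (Fintype.card H : ℂ) ≠ 0 := by exact_mod_cast Fintype.card_ne_zero
  have h6 := (smul_eq_zero.1 h4).resolve_left h5
  exact (neg_eq_of_add_eq_zero_right h6).symm

end Cfsg.Agent.Lib.Helper82
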