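import Cfsg.Agent.Lib.Helper82.TIFixed
import Cfsg.Agent.Lib.Helper82.Basic

set_option autoImplicit false
open scoped Pointwise

namespace Cfsg.Agent.Lib.Helper82

open Cfsg

/-- a T.I. Sylow subgroup is T.I. in every subgroup containing it -/
theorem ti_subtype {G : Type*} [Group G] (p : ℕ) (P : Sylow p G)
    (hTI : ∀ g : G, g ∉ Subgroup.normalizer ((P : Subgroup G) : Set G) →
      (P : Subgroup G) ⊓ (MulAut.conj g • (P : Subgroup G)) = ⊥)
    (K : Subgroup G) (hPK : (P : Subgroup G) ≤ K) (g : K)
    (hg : g ∉ Subgroup.normalizer (((P.subtype hPK : Sylow p K) : Subgroup K) : Set K)) :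
    ((P.subtype hPK : Sylow p K) : Subgroup K) ⊓
      (MulAut.conj g • ((P.subtype hPK : Sylow p K) : Subgroup K)) = ⊥ := by
  have hmem : ∀ x : K, x ∈ ((P.subtype hPK : Sylow p K) : Subgroup K) ↔ (x : G) ∈ (P : Subgroup G) :=
    fun x => Iff.rfl
  have hgG : (g : G) ∉ Subgroup.normalizer ((P : Subgroup G) : Set G) := by
    intro h
    apply hg
    rw [Subgroup.mem_normalizer_iff] at h ⊢
    intro x
    rw [hmem, hmem]
    exact h x
  have h1 := hTI g hgG
  rw [eq_bot_iff]
  intro x hx
  rw [Subgroup.mem_inf, Subgroup.mem_pointwise_smul_iff_inv_smul_mem] at hx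
  have h2 : (x : G) ∈ (P : Subgroup G) ⊓ (MulAut.conj (g : G) • (P : Subgroup G)) := by
    rw [Subgroup.mem_inf, Subgroup.mem_pointwise_smul_iff_inv_smul_mem]
    refine ⟨hx.1, ?_⟩
    have e1 : (MulAut.conj (g : G))⁻¹ • (x : G) = (g : G)⁻¹ * x * g := by
      rw [← map_inv, MulAut.smul_def, MulAut.conj_apply, inv_inv]
    have e2 : (MulAut.conj g)⁻¹ • x = g⁻¹ * x * g := by
      rw [← map_inv, MulAut.smul_def, MulAut.conj_apply, inv_inv]
    rw [e1]
    have := hx.2
    rw [e2] at this
    exact this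
  rw [h1, Subgroup.mem_bot] at h2
  rw [Subgroup.mem_bot]
  exact Subtype.ext h2

/-- **Central elements of local subgroups are central.**  `P` a T.I. Sylow `p`-subgroup of `G`, `χ` a
faithful character with `χ(1)² ≤ |P|`, `P ≤ K`.  An element commuting with `N_K(P)` is central in
`K`. -/
theorem commute_of_ti_faithful {G : Type*} [Group G] [Finite G] (p : ℕ) [Fact p.Prime]
    (P : Sylow p G)
    (hTI : ∀ g : G, g ∉ Subgroup.normalizer ((P : Subgroup G) : Set G) →
      (P : Subgroup G) ⊓ (MulAut.conj g • (P : Subgroup G)) = ⊥)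
    (χ : G → ℂ) (hχ : IsCharacter G χ) (hfaith : ∀ g : G, χ g = χ 1 → g = 1)
    (hdeg : charDegree χ ^ 2 ≤ Nat.card ↥(P : Subgroup G))
    (K : Subgroup G) (hPK : (P : Subgroup G) ≤ K) (z : G)
    (hz : ∀ g ∈ K, g ∈ Subgroup.normalizer ((P : Subgroup G) : Set G) → g * z = z * g) :
    ∀ g ∈ K, g * z = z * g := by
  classical
  have := Fintype.ofFinite K
  have hd := isChar_one_eq hχ
  obtain ⟨n, ρ, rfl⟩ := hχ
  have hn : charDegree ρ.character = n := by
    have e1 : ρ.character 1 = (n : ℂ) := by
      rw [Representation.char_one]; simp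
    rw [hd] at e1
    exact_mod_cast e1
  let ρK : Representation ℂ K (Fin n → ℂ) := ρ.comp K.subtype
  let R := Representation.linHom ρK ρK
  have hR : ∀ (g : K) (x : G), R g (ρ x) = ρ ((g : G) * x * (g : G)⁻¹) := by
    intro g x
    rw [Representation.linHom_apply, map_mul, map_mul]
    rfl
  have hcard : Nat.card ((P.subtype hPK : Sylow p K) : Subgroup K) = Nat.card (P : Subgroup G) :=
    Nat.card_congr (Subgroup.subgroupOfEquivOfLe hPK).toEquiv
  have hdim : Module.finrank ℂ ((Fin n → ℂ) →ₗ[ℂ] (Fin n → ℂ)) <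
      Nat.card ((P.subtype hPK : Sylow p K) : Subgroup K) +
        Module.finrank ℂ (Representation.invariants R) := by
    rw [Module.finrank_linearMap, Module.finrank_fin_fun, hcard]
    rw [hn, sq] at hdeg
    rcases Nat.eq_zero_or_pos n with h0 | h0
    · have : 0 < Nat.card (P : Subgroup G) := Nat.card_pos
      have : n * n = 0 := by rw [h0]
      omega
    · have hid : (LinearMap.id : (Fin n → ℂ) →ₗ[ℂ] (Fin n → ℂ)) ∈ Representation.invariants R := by
        rw [Representation.mem_invariants]
        intro g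
        have := hR g 1
        rw [mul_one, mul_inv_cancel, (map_one ρ : ρ 1 = 1)] at this
        exact this
      have hid0 : (LinearMap.id : (Fin n → ℂ) →ₗ[ℂ] (Fin n → ℂ)) ≠ 0 := by
        intro h
        have := congrFun (LinearMap.congr_fun h (fun _ => 1)) ⟨0, h0⟩
        simp at this
      have hne : Representation.invariants R ≠ ⊥ := by
        intro h
        rw [h, Submodule.mem_bot] at hid
        exact hid0 hid
      have h4 : Module.finrank ℂ (Representation.invariants R) ≠ 0 := by
        intro h3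
        exact hne (Submodule.finrank_eq_zero.mp h3)
      omega
  have key := fixed_of_ti R p (P.subtype hPK) (fun g hg => ti_subtype p P hTI K hPK g hg)
    (Subgroup.normalizer (((P.subtype hPK : Sylow p K) : Subgroup K) : Set K)) le_rfl hdim (ρ z)
    (by
      intro h hh
      rw [hR]
      have hhG : (h : G) ∈ Subgroup.normalizer ((P : Subgroup G) : Set G) := by
        rw [Subgroup.mem_normalizer_iff] at hh ⊢
        intro x
        constructor
        · intro hx
          exact (hh ⟨x, hPK hx⟩).1 hx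
        · intro hx
          have hxK : x ∈ K := by
            have := K.mul_mem (K.mul_mem (K.inv_mem h.2) (hPK hx)) h.2
            have e : (h : G)⁻¹ * ((h : G) * x * (h : G)⁻¹) * h = x := by group
            rwa [e] at this
          exact (hh ⟨x, hxK⟩).2 hx
      rw [hz h h.2 hhG, mul_assoc, mul_inv_cancel, mul_one])
  intro g hg
  have h1 := key ⟨g, hg⟩
  rw [hR] at h1
  have h2 : ρ (g * z * g⁻¹ * z⁻¹) = 1 := by
    rw [map_mul, h1, ← map_mul, mul_inv_cancel, map_one]
  have h3 : g * z * g⁻¹ * z⁻¹ = 1 := by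
    apply hfaith
    show LinearMap.trace ℂ _ (ρ _) = LinearMap.trace ℂ _ (ρ 1)
    rw [h2, (map_one ρ : ρ 1 = 1)]
  calc g * z = (g * z * g⁻¹ * z⁻¹) * (z * g) := by group
    _ = z * g := by rw [h3, one_mul]

end Cfsg.Agent.Lib.Helper82
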