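import Cfsg.Agent.Lib.Helper82.TICoset

set_option autoImplicit false
open scoped Pointwise

namespace Cfsg.Agent.Lib.Helper82

/-- **T.I. fixed point theorem.**  Let `P` be a T.I. Sylow `p`-subgroup of `G`, `N_G(P) ≤ H`, and
`W` a complex `G`-module with `dim W - dim W^G < |P|`.  Then every `H`-fixed vector is `G`-fixed.
(Equivalently: non-principal constituents of `(1_H)^G` have degree at least `|P|`.) -/
theorem fixed_of_ti {G W : Type*} [Group G] [Fintype G] [AddCommGroup W] [Module ℂ W]
    [FiniteDimensional ℂ W] (ρ : Representation ℂ G W) (p : ℕ) [Fact p.Prime] (P : Sylow p G)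
    (hTI : ∀ g : G, g ∉ Subgroup.normalizer ((P : Subgroup G) : Set G) →
      (P : Subgroup G) ⊓ (MulAut.conj g • (P : Subgroup G)) = ⊥)
    (H : Subgroup G) (hH : Subgroup.normalizer ((P : Subgroup G) : Set G) ≤ H)
    (hdim : Module.finrank ℂ W <
      Nat.card (P : Subgroup G) + Module.finrank ℂ (Representation.invariants ρ))
    (u : W) (hu : ∀ h ∈ H, ρ h u = u) : ∀ g, ρ g u = u := by
  classical
  have := Fintype.ofFinite (P : Subgroup G)
  let e : W →ₗ[ℂ] W := ∑ g : G, ρ g
  have he : ∀ x : W, e x = ∑ g : G, ρ g x := fun x => by simp [e, LinearMap.sum_apply]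
  have hge : ∀ (g : G) (x : W), ρ g (e x) = e x := by
    intro g x
    rw [he, map_sum, ← Equiv.sum_comp (Equiv.mulLeft g) (fun h => ρ h x)]
    apply Finset.sum_congr rfl
    intro h _
    simp
  have heg : ∀ (g : G) (x : W), e (ρ g x) = e x := by
    intro g x
    rw [he, he, ← Equiv.sum_comp (Equiv.mulRight g) (fun h => ρ h x)]
    apply Finset.sum_congr rfl
    intro h _
    simp
  have hc0 : (Fintype.card G : ℂ) ≠ 0 := by exact_mod_cast Fintype.card_ne_zero
  have hefix : ∀ x : W, (∀ g, ρ g x = x) → e x = (Fintype.card G : ℂ) • x := by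
    intro x hx
    rw [he, Finset.sum_congr rfl (fun g _ => hx g), Finset.sum_const, Finset.card_univ,
      Nat.cast_smul_eq_nsmul]
  have hrange : LinearMap.range e = Representation.invariants ρ := by
    apply le_antisymm
    · rintro _ ⟨x, rfl⟩
      rw [Representation.mem_invariants]
      exact fun g => hge g x
    · intro x hx
      rw [Representation.mem_invariants] at hx
      refine ⟨(Fintype.card G : ℂ)⁻¹ • x, ?_⟩
      rw [map_smul, hefix x hx, smul_smul, inv_mul_cancel₀ hc0, one_smul]
  obtain ⟨u', hu'⟩ : ∃ u', u' = (Fintype.card G : ℂ)⁻¹ • e u := ⟨_, rfl⟩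
  have hu'fix : ∀ g, ρ g u' = u' := by
    intro g
    rw [hu', map_smul, hge]
  obtain ⟨v, hv⟩ : ∃ v, v = u - u' := ⟨_, rfl⟩
  have hvH : ∀ h ∈ H, ρ h v = v := by
    intro h hh
    rw [hv, map_sub, hu h hh, hu'fix]
  have hev : e v = 0 := by
    rw [hv, map_sub, hefix u' hu'fix, hu', smul_smul, mul_inv_cancel₀ hc0, one_smul, sub_self]
  by_cases hv0 : v = 0
  · intro g
    have : u = u' := by
      rw [hv0] at hv
      exact (sub_eq_zero.1 hv.symm)
    rw [this]
    exact hu'fix g
  · exfalso
    obtain ⟨T, hT⟩ := exists_trace_eq ρ p P hTI H hH v hvH (by rw [← he]; exact hev)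
    have hLI := linearIndependent_of_sum_eq ρ (P : Subgroup G) P.2 v hv0 T hT
    have h1 := finrank_span_eq_card hLI
    have h2 : Submodule.span ℂ (Set.range fun x : (P : Subgroup G) =>
        ρ (x : G) (∑ t ∈ T, ρ t v)) ≤ LinearMap.ker e := by
      apply Submodule.span_le.2
      rintro _ ⟨x, rfl⟩
      show e _ = 0
      rw [heg, map_sum]
      apply Finset.sum_eq_zero
      intro t _
      rw [heg, hev]
    have h3 := Submodule.finrank_mono h2
    have h4 := LinearMap.finrank_range_add_finrank_ker e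
    rw [hrange] at h4
    rw [h1, ← Nat.card_eq_fintype_card] at h3
    omega

end Cfsg.Agent.Lib.Helper82
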