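import Cfsg.Agent.Lib.Helper63.PGroupFixed

set_option autoImplicit false

namespace Cfsg.Agent.Lib.Helper82

/-- a valuation subring of `ℂ` in which the prime `p` is not a unit -/
theorem exists_valuationSubring_nonunit {p : ℕ} (hp : p.Prime) :
    ∃ O : ValuationSubring ℂ, (p : ℂ) ∈ O.nonunits := by
  let A : Subring ℂ := (Int.castRingHom ℂ).range
  have hpA : (p : ℂ) ∈ A := ⟨(p : ℤ), by simp⟩
  have hI : Ideal.span {(⟨(p : ℂ), hpA⟩ : A)} ≠ ⊤ := by
    intro h
    rw [Ideal.span_singleton_eq_top] at h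
    obtain ⟨⟨b, n, hn⟩, hb⟩ := h.exists_right_inv
    have h1 : (p : ℂ) * b = 1 := congrArg Subtype.val hb
    rw [← hn] at h1
    have h2 : (p : ℤ) * n = 1 := by
      have : (((p : ℤ) * n : ℤ) : ℂ) = ((1 : ℤ) : ℂ) := by
        push_cast
        simpa using h1
      exact_mod_cast this
    have h3 : (p : ℤ) ∣ 1 := Dvd.intro _ h2
    have h4 : p ∣ 1 := by exact_mod_cast h3
    exact hp.one_lt.ne' (Nat.dvd_one.1 h4)
  obtain ⟨B, _, hB⟩ := Ideal.image_subset_nonunits_valuationSubring _ hI
  refine ⟨B, hB ⟨⟨(p : ℂ), hpA⟩, ?_, rfl⟩⟩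
  exact Ideal.subset_span (Set.mem_singleton _)

/-- the translation representation on functions -/
def transRep (k P : Type*) [Field k] [Group P] : Representation k P (P → k) where
  toFun y := LinearMap.funLeft k k (fun x => y⁻¹ * x)
  map_one' := by
    ext b x
    simp [LinearMap.funLeft_apply]
  map_mul' := by
    intro y z
    ext b x
    simp [LinearMap.funLeft_apply, mul_assoc]

theorem transRep_apply (k P : Type*) [Field k] [Group P] (y : P) (b : P → k) (x : P) :
    transRep k P y b x = b (y⁻¹ * x) := rfl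

/-- A translation invariant submodule of `P → O` (`O` local with residue characteristic `p`,
`P` a `p`-group) containing `𝔪 (P → O)` properly contains the constant function `1`. -/
theorem one_mem_of_translation_invariant {p : ℕ} [Fact p.Prime] {P : Type*} [Group P] [Finite P]
    (hP : IsPGroup p P) {O : Type*} [CommRing O] [IsLocalRing O]
    (hpO : (p : O) ∈ IsLocalRing.maximalIdeal O) (U : Submodule O (P → O))
    (htr : ∀ a ∈ U, ∀ y : P, (fun x => a (y⁻¹ * x)) ∈ U)
    (hm : ∀ a : P → O, (∀ x, a x ∈ IsLocalRing.maximalIdeal O) → a ∈ U)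
    (hne : ∃ a ∈ U, ∃ x, a x ∉ IsLocalRing.maximalIdeal O) : (fun _ => (1 : O)) ∈ U := by
  have hp : p.Prime := Fact.out
  let k := IsLocalRing.ResidueField O
  let res : O →+* k := IsLocalRing.residue O
  have hres : Function.Surjective res := IsLocalRing.residue_surjective
  have hres0 : ∀ a : O, res a = 0 ↔ a ∈ IsLocalRing.maximalIdeal O :=
    fun a => IsLocalRing.residue_eq_zero_iff a
  have hchar : CharP k p := by
    rw [CharP.charP_iff_prime_eq_zero hp]
    have := (hres0 (p : O)).2 hpO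
    rwa [map_natCast] at this
  let Ub : Submodule k (P → k) :=
    { carrier := {b | ∃ a ∈ U, ∀ x, res (a x) = b x}
      add_mem' := by
        rintro b c ⟨a, ha, hab⟩ ⟨a', ha', hac⟩
        exact ⟨a + a', U.add_mem ha ha', fun x => by simp [hab, hac]⟩
      zero_mem' := ⟨0, U.zero_mem, fun x => by simp⟩
      smul_mem' := by
        rintro c b ⟨a, ha, hab⟩
        obtain ⟨c', rfl⟩ := hres c
        exact ⟨c' • a, U.smul_mem _ ha, fun x => by simp [hab]⟩ }
  have hUb : ∀ b : P → k, b ∈ Ub ↔ ∃ a ∈ U, ∀ x, res (a x) = b x := fun b => Iff.rfl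
  have hinv : ∀ y, ∀ b ∈ Ub, transRep k P y b ∈ Ub := by
    rintro y b ⟨a, ha, hab⟩
    exact ⟨_, htr a ha y, fun x => by rw [transRep_apply, hab]⟩
  have hUne : Ub ≠ ⊥ := by
    obtain ⟨a, ha, x, hx⟩ := hne
    intro hbot
    have h1 : (fun x => res (a x)) ∈ Ub := ⟨a, ha, fun _ => rfl⟩
    rw [hbot, Submodule.mem_bot] at h1
    exact hx ((hres0 _).1 (congrFun h1 x))
  obtain ⟨b, hb, hb0, hfix⟩ := Helper63.exists_fixed_vector hP (transRep k P) Ub hinv hUne
  have hconst : ∀ x, b x = b 1 := by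
    intro x
    have := congrFun (hfix x⁻¹) 1
    rw [transRep_apply, inv_inv, mul_one] at this
    exact this
  have hb1 : b 1 ≠ 0 := by
    intro h
    apply hb0
    funext x
    rw [hconst x, h]; rfl
  have h1 : (b 1)⁻¹ • b ∈ Ub := Ub.smul_mem _ hb
  obtain ⟨a, ha, hab⟩ := h1
  have h2 : (fun _ => (1 : O)) - a ∈ U := by
    apply hm
    intro x
    rw [← hres0]
    simp only [Pi.sub_apply, map_sub, map_one, hab, Pi.smul_apply, smul_eq_mul]
    rw [hconst x, inv_mul_cancel₀ hb1, sub_self]
  have := U.add_mem h2 ha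
  rwa [sub_add_cancel] at this

/-- **Lattice lemma.**  If `v ≠ 0` and `-v` is the `P`-trace of an integral combination `w` of the
`G`-translates of `v` (`P` a `p`-subgroup), then the `P`-translates of `w` are linearly
independent. -/
theorem linearIndependent_of_sum_eq {p : ℕ} [Fact p.Prime] {G W : Type*} [Group G] [Finite G]
    [AddCommGroup W] [Module ℂ W] (ρ : Representation ℂ G W) (P : Subgroup G) (hP : IsPGroup p P)
    [Fintype P] (v : W) (hv : v ≠ 0) (T : Finset G)
    (hsum : ∑ x : P, ρ (x : G) (∑ t ∈ T, ρ t v) = - v) :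
    LinearIndependent ℂ (fun x : P => ρ (x : G) (∑ t ∈ T, ρ t v)) := by
  classical
  have hp : p.Prime := Fact.out
  obtain ⟨O, hpO⟩ := exists_valuationSubring_nonunit hp
  letI : Module O W := Module.compHom W (algebraMap O ℂ)
  haveI : IsScalarTower O ℂ W := IsScalarTower.of_algebraMap_smul (fun r x => rfl)
  have hsm : ∀ (r : O) (u : W), r • u = (r : ℂ) • u := fun r u => rfl
  have hpO' : (p : O) ∈ IsLocalRing.maximalIdeal O := by
    rw [← ValuationSubring.coe_mem_nonunits_iff]
    simpa using hpO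
  let L : Submodule O W := Submodule.span O (Set.range fun g => ρ g v)
  have hρsm : ∀ (g : G) (r : O) (u : W), ρ g (r • u) = r • ρ g u := by
    intro g r u
    rw [hsm, hsm, map_smul]
  have hL : ∀ g, ∀ u ∈ L, ρ g u ∈ L := by
    intro g u hu
    induction hu using Submodule.span_induction with
    | mem x hx =>
      obtain ⟨h, rfl⟩ := hx
      apply Submodule.subset_span
      exact ⟨g * h, by simp⟩
    | zero => rw [map_zero]; exact L.zero_mem
    | add x y _ _ hx hy => rw [map_add]; exact L.add_mem hx hy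
    | smul r x _ hx => rw [hρsm]; exact L.smul_mem _ hx
  have hmL : ∀ g, ∀ u ∈ IsLocalRing.maximalIdeal O • L, ρ g u ∈ IsLocalRing.maximalIdeal O • L := by
    intro g u hu
    refine Submodule.smul_induction_on hu ?_ ?_
    · intro r hr n hn
      rw [hρsm]
      exact Submodule.smul_mem_smul hr (hL g n hn)
    · intro x y hx hy
      rw [map_add]
      exact add_mem hx hy
  have hvL : v ∈ L := Submodule.subset_span ⟨1, by simp⟩
  have hvm : v ∉ IsLocalRing.maximalIdeal O • L := by
    intro hvm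
    have h1 : L ≤ IsLocalRing.maximalIdeal O • L := by
      apply Submodule.span_le.2
      rintro _ ⟨g, rfl⟩
      exact hmL g v hvm
    have h2 : L = ⊥ := Submodule.eq_bot_of_le_smul_of_le_jacobson_bot _ L
      (Submodule.fg_span (Set.finite_range _)) h1 (IsLocalRing.maximalIdeal_le_jacobson _)
    rw [h2, Submodule.mem_bot] at hvL
    exact hv hvL
  set w := ∑ t ∈ T, ρ t v with hw
  have hwL : w ∈ L := L.sum_mem fun t _ => Submodule.subset_span ⟨t, rfl⟩
  let Ψ : (P → O) →ₗ[O] W := Fintype.linearCombination O (fun x : P => ρ (x : G) w)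
  have hΨ : ∀ a : P → O, Ψ a = ∑ x : P, a x • ρ (x : G) w := fun a =>
    Fintype.linearCombination_apply O _ a
  let U : Submodule O (P → O) := (IsLocalRing.maximalIdeal O • L).comap Ψ
  have hU : ∀ a, a ∈ U ↔ Ψ a ∈ IsLocalRing.maximalIdeal O • L := fun a => Iff.rfl
  have htr : ∀ a ∈ U, ∀ y : P, (fun x => a (y⁻¹ * x)) ∈ U := by
    intro a ha y
    rw [hU] at ha ⊢
    have : Ψ (fun x => a (y⁻¹ * x)) = ρ (y : G) (Ψ a) := by
      rw [hΨ, hΨ, map_sum, ← Equiv.sum_comp (Equiv.mulLeft y)]
      apply Finset.sum_congr rfl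
      intro x _
      simp only [Equiv.coe_mulLeft, inv_mul_cancel_left, hρsm, Subgroup.coe_mul, map_mul,
        Module.End.mul_apply]
    rw [this]
    exact hmL _ _ ha
  have hm : ∀ a : P → O, (∀ x, a x ∈ IsLocalRing.maximalIdeal O) → a ∈ U := by
    intro a ha
    rw [hU, hΨ]
    exact Submodule.sum_mem _ fun x _ => Submodule.smul_mem_smul (ha x) (hL _ _ hwL)
  rw [Fintype.linearIndependent_iff]
  intro a ha
  by_contra hcon
  push Not at hcon
  obtain ⟨x₁, hx₁⟩ := hcon
  obtain ⟨x₀, -, hx₀⟩ := Finset.exists_max_image Finset.univ (fun x : P => O.valuation (a x))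
    ⟨1, Finset.mem_univ _⟩
  have hval0 : O.valuation (a x₀) ≠ 0 := by
    intro h0
    have h1 := hx₀ x₁ (Finset.mem_univ _)
    rw [h0] at h1
    have h2 : O.valuation (a x₁) = 0 := le_antisymm h1 zero_le'
    exact hx₁ ((map_eq_zero _).1 h2)
  have hax₀ : a x₀ ≠ 0 := fun h => hval0 (by rw [h, map_zero])
  let a' : P → O := fun x => ⟨a x / a x₀, by
    rw [← O.valuation_le_one_iff, map_div₀]
    exact div_le_one_of_le₀ (hx₀ x (Finset.mem_univ _)) zero_le'⟩
  have ha'U : a' ∈ U := by
    rw [hU, hΨ]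
    have : ∑ x : P, a' x • ρ (x : G) w = (a x₀)⁻¹ • ∑ x : P, a x • ρ (x : G) w := by
      rw [Finset.smul_sum]
      apply Finset.sum_congr rfl
      intro x _
      rw [hsm, smul_smul]
      congr 1
      show a x / a x₀ = _
      rw [div_eq_inv_mul]
    rw [this, ha, smul_zero]
    exact Submodule.zero_mem _
  have ha'x₀ : a' x₀ ∉ IsLocalRing.maximalIdeal O := by
    have : a' x₀ = 1 := by
      apply Subtype.ext
      show a x₀ / a x₀ = 1
      exact div_self hax₀
    rw [this]
    exact fun h => (Ideal.ne_top_iff_one _).1 (IsLocalRing.maximalIdeal.isMaximal O).ne_top h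
  have h1 := one_mem_of_translation_invariant hP hpO' U htr hm ⟨a', ha'U, x₀, ha'x₀⟩
  rw [hU, hΨ] at h1
  simp only [one_smul] at h1
  rw [hsum] at h1
  exact hvm (by simpa using h1)

end Cfsg.Agent.Lib.Helper82
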